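import Mathlib
import Cfsg.Agent.Lib.ClMax.SLStab
import Cfsg.Agent.Lib.RegUnip.Basic

/-!
Generation of `SL(V)` by regular unipotent elements: transport to matrices, the key lemma
(an irreducible group containing all transvections with centre `a` and axis through a plane),
and pairs of opposite regular unipotent elements.
-/

set_option autoImplicit false

namespace CfsgLib.GenSL

open Module CfsgLib.ClMax

variable {F : Type*} [Field F] {V : Type*} [AddCommGroup V] [Module F V]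

/-- `X` acts irreducibly. -/
def Irr (X : Subgroup (V ≃ₗ[F] V)) : Prop :=
  ∀ U : Submodule F V, (∀ g ∈ X, ∀ u ∈ U, g u ∈ U) → U = ⊥ ∨ U = ⊤

theorem mem_SLV_of_nilpotent [FiniteDimensional F V] {g : V ≃ₗ[F] V}
    (h : IsNilpotent ((g : End F V) - 1)) : g ∈ SLV F V := by
  rw [mem_SLV]
  have h2 : IsNilpotent (1 - (g : End F V)) := by
    have := h.neg
    rwa [neg_sub] at this
  have h3 := LinearMap.eval_charpoly (1 - (g : End F V)) 1
  rw [h2.charpoly_eq_X_pow_finrank] at h3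
  simpa using h3.symm

/-- The statement about matrices from the statement about a vector space with a basis. -/
theorem exists_SL_of_basis {n : ℕ} (b : Basis (Fin n) F V) {u g : V ≃ₗ[F] V}
    (hg : g ∈ SLV F V) (hn : IsNilpotent ((u : End F V) - 1))
    (hr : ((u : End F V) - 1) ^ (n - 1) ≠ 0)
    (h : SLV F V ≤ Subgroup.closure {u, g * u * g⁻¹}) :
    ∃ u g : Matrix.SpecialLinearGroup (Fin n) F,
      (IsNilpotent ((u : Matrix (Fin n) (Fin n) F) - 1) ∧
        ((u : Matrix (Fin n) (Fin n) F) - 1) ^ (n - 1) ≠ 0) ∧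
      Subgroup.closure ({u, g * u * g⁻¹} : Set (Matrix.SpecialLinearGroup (Fin n) F)) = ⊤ := by
  classical
  haveI : FiniteDimensional F V := Module.Finite.of_basis b
  have hu : u ∈ SLV F V := mem_SLV_of_nilpotent hn
  let e := Matrix.SpecialLinearGroup.toLin_equiv b
  let Φ : Matrix.SpecialLinearGroup (Fin n) F →* (V ≃ₗ[F] V) :=
    SpecialLinearGroup.toLinearEquiv.comp e.toMonoidHom
  have hΦ : Function.Injective Φ := SpecialLinearGroup.toLinearEquiv_injective.comp e.injective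
  let u' := e.symm ⟨u, hu⟩
  let g' := e.symm ⟨g, hg⟩
  have hu' : Φ u' = u := by simp [Φ, u']; rfl
  have hg' : Φ g' = g := by simp [Φ, g']; rfl
  have hm : (u' : Matrix (Fin n) (Fin n) F) - 1 =
      LinearMap.toMatrixAlgEquiv b ((u : End F V) - 1) := by
    rw [map_sub, map_one]; rfl
  refine ⟨u', g', ⟨?_, ?_⟩, ?_⟩
  · rw [hm]; exact hn.map _
  · rw [hm, ← map_pow]
    exact fun h0 => hr ((LinearMap.toMatrixAlgEquiv b).injective (h0.trans (map_zero _).symm))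
  · rw [eq_top_iff]
    intro A _
    have h1 : Φ A ∈ Subgroup.closure {u, g * u * g⁻¹} := h (e A).2
    have h2 : Subgroup.closure {u, g * u * g⁻¹} =
        (Subgroup.closure ({u', g' * u' * g'⁻¹} : Set _)).map Φ := by
      rw [MonoidHom.map_closure, Set.image_pair, map_mul, map_mul, map_inv, hu', hg']
    rw [h2] at h1
    obtain ⟨B, hB, hBA⟩ := h1
    rwa [← hΦ hBA]

section Key

theorem exists_smul_of_finrank_le_one [FiniteDimensional F V] {W : Submodule F V}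
    (hW : finrank F W ≤ 1) {x y : V} (hx : x ∈ W) (hy : y ∈ W) (h0 : x ≠ 0) :
    ∃ c : F, y = c • x := by
  have h1 : Submodule.span F {x} = W := by
    apply Submodule.eq_of_le_of_finrank_le
    · rwa [Submodule.span_singleton_le_iff_mem]
    · rwa [finrank_span_singleton h0]
  rw [← h1, Submodule.mem_span_singleton] at hy
  obtain ⟨c, hc⟩ := hy
  exact ⟨c, hc.symm⟩

theorem finrank_inf_le_one [FiniteDimensional F V] {R S : Submodule F V} (hR : finrank F R = 2)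
    (h : ¬ R ≤ S) : finrank F (R ⊓ S : Submodule F V) ≤ 1 := by
  have : R ⊓ S < R := lt_of_le_of_ne inf_le_left fun e => h (e ▸ inf_le_right)
  have := Submodule.finrank_lt_finrank_of_lt this
  omega

/-- Pairwise meeting planes are concurrent or lie in a common 3-space. -/
theorem planes_meeting [FiniteDimensional F V] (𝓕 : Set (Submodule F V))
    (h2 : ∀ R ∈ 𝓕, finrank F R = 2) (hm : ∀ R ∈ 𝓕, ∀ R' ∈ 𝓕, R ⊓ R' ≠ ⊥) :
    (∃ l : V, l ≠ 0 ∧ ∀ R ∈ 𝓕, l ∈ R) ∨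
      ∃ S : Submodule F V, finrank F S ≤ 3 ∧ ∀ R ∈ 𝓕, R ≤ S := by
  by_contra hc
  push Not at hc
  obtain ⟨h1, h3⟩ := hc
  obtain ⟨P₀, hP₀, -⟩ := h3 ⊥ (by simp)
  obtain ⟨P₁, hP₁, hn⟩ := h3 P₀ (by rw [h2 _ hP₀]; omega)
  obtain ⟨l, hl, hl0⟩ := (Submodule.ne_bot_iff _).1 (hm _ hP₁ _ hP₀)
  have hi := finrank_inf_le_one (h2 _ hP₁) hn
  have hS : finrank F (P₁ ⊔ P₀ : Submodule F V) ≤ 3 := by
    have e := Submodule.finrank_sup_add_finrank_inf_eq P₁ P₀
    have : 0 < finrank F (P₁ ⊓ P₀ : Submodule F V) :=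
      Submodule.one_le_finrank_iff.2 (hm _ hP₁ _ hP₀)
    rw [h2 _ hP₀, h2 _ hP₁] at e
    omega
  have key : ∀ R ∈ 𝓕, ¬ R ≤ P₁ ⊔ P₀ → l ∈ R := by
    intro R hR hRS
    have hi' := finrank_inf_le_one (h2 _ hR) hRS
    obtain ⟨r₀, hr₀, h0⟩ := (Submodule.ne_bot_iff _).1 (hm _ hR _ hP₀)
    obtain ⟨r₁, hr₁, h1'⟩ := (Submodule.ne_bot_iff _).1 (hm _ hR _ hP₁)
    obtain ⟨c, hc⟩ := exists_smul_of_finrank_le_one hi'
      (⟨hr₀.1, Submodule.mem_sup_right hr₀.2⟩ : r₀ ∈ R ⊓ (P₁ ⊔ P₀))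
      (⟨hr₁.1, Submodule.mem_sup_left hr₁.2⟩ : r₁ ∈ R ⊓ (P₁ ⊔ P₀)) h0
    obtain ⟨d, hd⟩ := exists_smul_of_finrank_le_one hi
      (⟨hr₁.2, hc ▸ P₀.smul_mem c hr₀.2⟩ : r₁ ∈ P₁ ⊓ P₀) hl h1'
    exact hd ▸ R.smul_mem d hr₁.1
  obtain ⟨R₂, hR₂, hl₂⟩ := h1 l hl0
  obtain ⟨R₃, hR₃, hS₃⟩ := h3 _ hS
  have hS₂ : R₂ ≤ P₁ ⊔ P₀ := by
    by_contra h
    exact hl₂ (key _ hR₂ h)
  obtain ⟨r, hr, hr0⟩ := (Submodule.ne_bot_iff _).1 (hm _ hR₃ _ hR₂)
  obtain ⟨c, hc⟩ := exists_smul_of_finrank_le_one (finrank_inf_le_one (h2 _ hR₃) hS₃)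
    (⟨hr.1, hS₂ hr.2⟩ : r ∈ R₃ ⊓ (P₁ ⊔ P₀))
    (⟨key _ hR₃ hS₃, Submodule.mem_sup_left hl.1⟩ : l ∈ R₃ ⊓ (P₁ ⊔ P₀)) hr0
  exact hl₂ (hc ▸ R₂.smul_mem c hr.2)

variable {X : Subgroup (V ≃ₗ[F] V)}

theorem fullTv_of_disjoint {a a' c : V} {R : Submodule F V}
    (h : ∀ φ : Dual F V, φ a = 0 → φ a' = 0 → HasTv X a φ)
    (h' : ∀ φ : Dual F V, (∀ r ∈ R, φ r = 0) → HasTv X c φ) (hc : c ∈ R) (hc0 : c ≠ 0)
    (ha' : a' ∉ Submodule.span F {a}) (hd : Submodule.span F {a, a'} ⊓ R = ⊥) : FullTv X a := by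
  have hdis : ∀ x, x ∈ Submodule.span F {a, a'} → x ∈ R → x = 0 := fun x h1 h2 =>
    (Submodule.eq_bot_iff _).1 hd x ⟨h1, h2⟩
  have haP : a ∈ Submodule.span F {a, a'} := Submodule.subset_span (by simp)
  have haP' : a' ∈ Submodule.span F {a, a'} := Submodule.subset_span (by simp)
  obtain ⟨φ₀, h1, h2⟩ := exists_dual_one (W := Submodule.span F {a, a'}) (u := c)
    (fun hP => hc0 (hdis c hP hc))
  have hβ : a' ∉ R ⊔ Submodule.span F {a} := by
    intro hm
    obtain ⟨r, hr, s, hs, e⟩ := Submodule.mem_sup.1 hm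
    have hsP : s ∈ Submodule.span F {a, a'} :=
      Submodule.span_mono (by simp) hs
    have : r = 0 := hdis r (by rw [eq_sub_of_add_eq e]; exact Submodule.sub_mem _ haP' hsP) hr
    rw [this, zero_add] at e
    exact ha' (e ▸ hs)
  obtain ⟨β, hβ1, hβ2⟩ := exists_dual_one hβ
  have hβa : β a = 0 := hβ2 a (Submodule.mem_sup_right (Submodule.mem_span_singleton_self a))
  have hβR : ∀ r ∈ R, β r = 0 := fun r hr => hβ2 r (Submodule.mem_sup_left hr)
  intro φ hφ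
  have e1 : HasTv X a (φ - φ a' • β) := h _ (by simp [hφ, hβa]) (by simp [hβ1])
  have e2 := (h (φ a' • φ₀) (by simp [h2 a haP]) (by simp [h2 a' haP'])).comm (h' β hβR)
    (by simp [h2 a haP]) (hβR c hc) hβa
  have e3 := e1.add_right e2 (by simp [hφ, hβa])
  simpa [h1] using e3

/-- Key lemma: in dimension at least `4`, an irreducible group containing all transvections with
centre `a` whose axis contains `a'` contains `SL(V)`. -/
theorem SLV_le_of_plane [FiniteDimensional F V] (h4 : 4 ≤ finrank F V) (hirr : Irr X) {a a' : V}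
    (ha : a ≠ 0) (h : ∀ φ : Dual F V, φ a = 0 → φ a' = 0 → HasTv X a φ) : SLV F V ≤ X := by
  by_cases ha' : a' ∈ Submodule.span F {a}
  · refine SLV_le_of_irred ha (fun φ hφ => h φ hφ ?_) hirr
    obtain ⟨c, rfl⟩ := Submodule.mem_span_singleton.1 ha'
    simp [hφ]
  set P := Submodule.span F {a, a'} with hP
  have hP2 : finrank F P = 2 := by
    have hli : LinearIndependent F ![a, a'] := by
      rw [LinearIndependent.pair_iff' ha]
      intro c hc
      exact ha' (Submodule.mem_span_singleton.2 ⟨c, hc⟩)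
    have := finrank_span_eq_card hli
    rwa [Matrix.range_cons_cons_empty, Fintype.card_fin] at this
  have haP : a ∈ P := Submodule.subset_span (by simp)
  let 𝓕 : Set (Submodule F V) := {R | ∃ g ∈ X, R = P.map (g : V →ₗ[F] V)}
  have h2 : ∀ R ∈ 𝓕, finrank F R = 2 := by
    rintro R ⟨g, -, rfl⟩
    rw [LinearEquiv.finrank_map_eq, hP2]
  by_cases hm : ∀ R ∈ 𝓕, ∀ R' ∈ 𝓕, R ⊓ R' ≠ ⊥
  · exfalso
    rcases planes_meeting 𝓕 h2 hm with ⟨l, hl0, hl⟩ | ⟨S, hS, hle⟩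
    · rcases hirr (⨅ g ∈ X, P.map (g : V →ₗ[F] V)) (by
        intro g hg u hu
        simp only [Submodule.mem_iInf] at hu ⊢
        intro k hk
        obtain ⟨p, hp, e⟩ := hu (g⁻¹ * k) (X.mul_mem (X.inv_mem hg) hk)
        refine ⟨p, hp, ?_⟩
        rw [← e]
        exact (apply_inv_apply g (k p)).symm) with e | e
      · have : l ∈ (⨅ g ∈ X, P.map (g : V →ₗ[F] V)) := by
          simp only [Submodule.mem_iInf]
          exact fun g hg => hl _ ⟨g, hg, rfl⟩
        rw [e] at this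
        exact hl0 this
      · have : (⨅ g ∈ X, P.map (g : V →ₗ[F] V)) ≤ P.map ((1 : V ≃ₗ[F] V) : V →ₗ[F] V) :=
          iInf₂_le (1 : V ≃ₗ[F] V) X.one_mem
        have h5 := Submodule.finrank_mono this
        rw [e, finrank_top, h2 _ ⟨1, X.one_mem, rfl⟩] at h5
        omega
    · rcases hirr (Submodule.span F {x | ∃ g ∈ X, x = g a}) (by
        intro g hg u hu
        have : (Submodule.span F {x | ∃ g ∈ X, x = g a}).map (g : V →ₗ[F] V) ≤
            Submodule.span F {x | ∃ g ∈ X, x = g a} := by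
          rw [Submodule.map_span_le]
          rintro _ ⟨k, hk, rfl⟩
          exact Submodule.subset_span ⟨g * k, X.mul_mem hg hk, rfl⟩
        exact this ⟨u, hu, rfl⟩) with e | e
      · have : a ∈ Submodule.span F {x | ∃ g ∈ X, x = g a} :=
          Submodule.subset_span ⟨1, X.one_mem, rfl⟩
        rw [e] at this
        exact ha this
      · have : Submodule.span F {x | ∃ g ∈ X, x = g a} ≤ S := by
          rw [Submodule.span_le]
          rintro _ ⟨k, hk, rfl⟩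
          exact hle _ ⟨k, hk, rfl⟩ ⟨a, haP, rfl⟩
        have h5 := Submodule.finrank_mono this
        rw [e, finrank_top] at h5
        omega
  · push Not at hm
    obtain ⟨_, ⟨g, hg, rfl⟩, _, ⟨k, hk, rfl⟩, hd⟩ := hm
    have hj : g⁻¹ * k ∈ X := X.mul_mem (X.inv_mem hg) hk
    refine SLV_le_of_irred ha (fullTv_of_disjoint (c := (g⁻¹ * k) a)
      (R := P.map ((g⁻¹ * k : V ≃ₗ[F] V) : V →ₗ[F] V)) h ?_ ⟨a, haP, rfl⟩
      (by simpa using ha) ha' ?_) hirr
    · intro φ hφ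
      refine (h (φ ∘ₗ ((g⁻¹ * k : V ≃ₗ[F] V) : V →ₗ[F] V)) (hφ _ ⟨a, haP, rfl⟩)
        (hφ _ ⟨a', Submodule.subset_span (by simp), rfl⟩)).conj' hj fun x => rfl
    · rw [Submodule.eq_bot_iff] at hd ⊢
      rintro x ⟨hx, p, hp, rfl⟩
      have := hd (k p) ⟨⟨_, hx, apply_inv_apply g (k p)⟩, p, hp, rfl⟩
      have hp0 : p = 0 := by simpa using this
      simp [hp0]

end Key

end CfsgLib.GenSL
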