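import Mathlib
import Cfsg.Agent.Lib.GenSL.Basic

/-!
A pair of opposite regular unipotent elements: `v` is a lower Jordan block in the basis `B i`,
`w` is upper unitriangular with non-zero superdiagonal.
-/

set_option autoImplicit false

namespace CfsgLib.GenSL

open Module CfsgLib.ClMax

variable {F : Type*} [Field F] {V : Type*} [AddCommGroup V] [Module F V]

/-- The flag spanned by a sequence of vectors. -/
def flag (F : Type*) [Field F] [Module F V] (B : ℕ → V) (j : ℕ) : Submodule F V :=
  Submodule.span F (B '' Set.Iio j)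

theorem mem_flag {B : ℕ → V} {i j : ℕ} (h : i < j) : B i ∈ flag F B j :=
  Submodule.subset_span ⟨i, h, rfl⟩

theorem flag_mono (B : ℕ → V) {i j : ℕ} (h : i ≤ j) : flag F B i ≤ flag F B j :=
  Submodule.span_mono (Set.image_mono fun _ hx => lt_of_lt_of_le hx h)

theorem flag_zero (B : ℕ → V) : flag F B 0 = ⊥ := by
  simp [flag]

theorem map_flag_le {W : Type*} [AddCommGroup W] [Module F W] {B : ℕ → V} {j : ℕ}
    {M : V →ₗ[F] W} {U : Submodule F W} (h : ∀ i < j, M (B i) ∈ U) {x : V}
    (hx : x ∈ flag F B j) : M x ∈ U := by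
  have : flag F B j ≤ U.comap M := by
    rw [flag, Submodule.span_le]
    rintro _ ⟨i, hi, rfl⟩
    exact h i hi
  exact this hx

/-- The data of an opposite pair. -/
structure OppPair {n : ℕ} (b : Basis (Fin n) F V) (B : ℕ → V) (d : ℕ → F) (v w : V ≃ₗ[F] V) :
    Prop where
  pos : 0 < n
  hB : ∀ i : Fin n, b i = B i
  hBn : B n = 0
  hv : ∀ i < n, v (B i) = B i + B (i + 1)
  hw0 : w (B 0) = B 0
  hw : ∀ i, i + 1 < n → w (B (i + 1)) - B (i + 1) + d (i + 1) • B i ∈ flag F B i
  hd : ∀ i, i + 1 < n → d (i + 1) ≠ 0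

namespace OppPair

variable {n : ℕ} {b : Basis (Fin n) F V} {B : ℕ → V} {d : ℕ → F} {v w : V ≃ₗ[F] V}
  (H : OppPair b B d v w)
include H

theorem flag_top : flag F B n = ⊤ := by
  rw [eq_top_iff, ← b.span_eq, Submodule.span_le]
  rintro _ ⟨i, rfl⟩
  rw [H.hB]
  exact mem_flag i.2

theorem repr_flag {j : ℕ} (hj : j ≤ n) {x : V} (hx : x ∈ flag F B j) (i : Fin n)
    (hi : j ≤ i) : b.repr x i = 0 := by
  have := map_flag_le (M := b.coord i) (U := ⊥) (fun k hk => by
    have e := H.hB ⟨k, by omega⟩
    simp only at e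
    rw [← e, Submodule.mem_bot, Basis.coord_apply, Basis.repr_self, Finsupp.single_apply, if_neg]
    intro h
    have := congrArg Fin.val h
    simp only at this
    omega) hx
  simpa using this

theorem B_ne_zero {i : ℕ} (hi : i < n) : B i ≠ 0 := by
  have e := H.hB ⟨i, hi⟩
  simp only at e
  exact e ▸ b.ne_zero _

theorem N_pow (k i : ℕ) (h : i + k ≤ n) : (((v : End F V) - 1) ^ k) (B i) = B (i + k) := by
  induction k with
  | zero => simp
  | succ k ih =>
    rw [pow_succ', End.mul_apply, ih (by omega), LinearMap.sub_apply, LinearEquiv.coe_coe,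
      H.hv _ (by omega)]
    simp [add_assoc]

theorem N_pow_zero (k i : ℕ) (hi : i ≤ n) (h : n ≤ i + k) :
    (((v : End F V) - 1) ^ k) (B i) = 0 := by
  obtain ⟨j, rfl⟩ : ∃ j, k = j + (n - i) := ⟨k - (n - i), by omega⟩
  rw [pow_add, End.mul_apply, H.N_pow _ _ (by omega), show i + (n - i) = n by omega, H.hBn,
    map_zero]

theorem N_pow_n : ((v : End F V) - 1) ^ n = 0 := by
  refine b.ext fun i => ?_
  rw [H.hB, H.N_pow_zero _ _ i.2.le (by omega)]
  rfl

theorem N_nilpotent : IsNilpotent ((v : End F V) - 1) := ⟨n, H.N_pow_n⟩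

theorem N_pow_ne : ((v : End F V) - 1) ^ (n - 1) ≠ 0 := by
  intro h
  have := H.N_pow (n - 1) 0 (by omega)
  rw [h, zero_add] at this
  exact H.B_ne_zero (by have := H.pos; omega) this.symm

theorem M_B {i : ℕ} (hi : i < n) : ((w : End F V) - 1) (B i) ∈ flag F B i := by
  cases i with
  | zero => simp [H.hw0]
  | succ i =>
    have := Submodule.sub_mem _ (flag_mono B i.le_succ (H.hw i hi))
      (Submodule.smul_mem _ (d (i + 1)) (mem_flag (B := B) i.lt_succ_self))
    simpa using this

theorem M_flag {j : ℕ} (hj : j < n) {x : V} (hx : x ∈ flag F B (j + 1)) :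
    ((w : End F V) - 1) x ∈ flag F B j :=
  map_flag_le (fun i hi => flag_mono B (by omega) (H.M_B (by omega))) hx

theorem M_pow_n : ((w : End F V) - 1) ^ n = 0 := by
  have : ∀ k ≤ n, ∀ x, (((w : End F V) - 1) ^ k) x ∈ flag F B (n - k) := by
    intro k
    induction k with
    | zero => intro _ x; simp [H.flag_top]
    | succ k ih =>
      intro hk x
      rw [pow_succ', End.mul_apply]
      apply H.M_flag (by omega)
      rw [show n - (k + 1) + 1 = n - k by omega]
      exact ih (by omega) x
  ext x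
  have := this n le_rfl x
  rwa [Nat.sub_self, flag_zero] at this

theorem M_nilpotent : IsNilpotent ((w : End F V) - 1) := ⟨n, H.M_pow_n⟩

theorem M_pow (k : ℕ) (hk : k < n) : (((w : End F V) - 1) ^ k) (B (n - 1)) -
    (∏ j ∈ Finset.range k, -d (n - 1 - j)) • B (n - 1 - k) ∈ flag F B (n - 1 - k) := by
  induction k with
  | zero => simp
  | succ k ih =>
    obtain ⟨i, hi⟩ : ∃ i, n - 1 - k = i + 1 := ⟨n - 1 - k - 1, by omega⟩
    have h1 := ih (by omega)
    rw [hi] at h1
    have h2 := H.M_flag (by omega) h1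
    have h3 := Submodule.smul_mem _ (∏ j ∈ Finset.range k, -d (n - 1 - j)) (H.hw i (by omega))
    rw [show n - 1 - (k + 1) = i by omega, Finset.prod_range_succ, hi]
    convert Submodule.add_mem _ h2 h3 using 1
    simp only [pow_succ', End.mul_apply, map_sub, map_smul, LinearMap.sub_apply,
      LinearEquiv.coe_coe, End.one_apply]
    module

theorem prod_ne (k : ℕ) (hk : k < n) : (∏ j ∈ Finset.range k, -d (n - 1 - j)) ≠ 0 := by
  rw [Finset.prod_ne_zero_iff]
  intro j hj
  rw [Finset.mem_range] at hj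
  have := H.hd (n - 1 - j - 1) (by omega)
  rw [show n - 1 - j - 1 + 1 = n - 1 - j by omega] at this
  exact neg_ne_zero.2 this

theorem M_pow_ne_apply : (((w : End F V) - 1) ^ (n - 1)) (B (n - 1)) ≠ 0 := by
  have hp := H.pos
  have := H.M_pow (n - 1) (by omega)
  rw [Nat.sub_self, flag_zero, Submodule.mem_bot, sub_eq_zero] at this
  rw [this]
  exact smul_ne_zero (H.prod_ne _ (by omega)) (H.B_ne_zero hp)

theorem irr {X : Subgroup (V ≃ₗ[F] V)} (hv : v ∈ X) (hw : w ∈ X) : Irr X := by
  classical
  haveI : FiniteDimensional F V := Module.Finite.of_basis b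
  have hp := H.pos
  intro U hU
  refine or_iff_not_imp_left.2 fun h0 => ?_
  obtain ⟨u, hu, hu0⟩ := (Submodule.ne_bot_iff _).1 h0
  have hN : ∀ k : ℕ, (((v : End F V) - 1) ^ k) u ∈ U := by
    intro k
    induction k with
    | zero => simpa using hu
    | succ k ih =>
      rw [pow_succ', End.mul_apply]
      exact U.sub_mem (hU v hv _ ih) ih
  have hex : (Finset.univ.filter fun i : Fin n => b.repr u i ≠ 0).Nonempty := by
    by_contra hc
    apply hu0
    rw [Finset.not_nonempty_iff_eq_empty, Finset.filter_eq_empty_iff] at hc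
    exact b.repr.injective (Finsupp.ext fun i => by simpa using hc (Finset.mem_univ i))
  obtain ⟨i, hi, hmin⟩ := Finset.exists_min_image _ id hex
  rw [Finset.mem_filter] at hi
  have hlast : B (n - 1) ∈ U := by
    have e : (((v : End F V) - 1) ^ (n - 1 - i)) u = b.repr u i • B (n - 1) := by
      conv_lhs => rw [← b.sum_repr u]
      rw [map_sum, Finset.sum_eq_single i]
      · rw [map_smul, H.hB, H.N_pow _ _ (by omega), show i + (n - 1 - i) = n - 1 by omega]
      · intro j _ hj
        rcases lt_or_gt_of_ne hj with h | h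
        · have : b.repr u j = 0 := by
            by_contra hc
            exact absurd (hmin j (by simpa using hc)) (not_le.2 h)
          simp [this]
        · rw [map_smul, H.hB, H.N_pow_zero _ _ j.2.le (by have : (i : ℕ) < j := h; omega),
            smul_zero]
      · simp
    have := hN (n - 1 - i)
    rw [e] at this
    exact (U.smul_mem_iff hi.2).1 this
  have := RegUnip.succ_le_finrank ((w : End F V) - 1) (d := n - 1)
    (by rw [show n - 1 + 1 = n by omega, H.M_pow_n]; rfl) H.M_pow_ne_apply hlast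
    (fun a ha => U.sub_mem (hU w hw _ ha) ha)
  apply Submodule.eq_top_of_finrank_eq
  have h1 := Submodule.finrank_le U
  have h2 : finrank F V = n := by simpa using finrank_eq_card_basis b
  omega

theorem conj {Y : F} (hY : Y ^ n = ∏ k ∈ Finset.range n, ∏ j ∈ Finset.range k, d (n - 1 - j)) :
    ∃ g ∈ SLV F V, g * v * g⁻¹ = w := by
  classical
  haveI : FiniteDimensional F V := Module.Finite.of_basis b
  have hp := H.pos
  have hY0 : Y ≠ 0 := by
    intro h
    rw [h, zero_pow hp.ne', eq_comm, Finset.prod_eq_zero_iff] at hY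
    obtain ⟨k, hk, h0⟩ := hY
    have := H.prod_ne k (Finset.mem_range.1 hk)
    rw [Finset.prod_neg, h0, mul_zero] at this
    exact this rfl
  let g : End F V := b.constr F fun k : Fin n =>
    Y⁻¹ • (((w : End F V) - 1) ^ (k : ℕ)) (B (n - 1))
  have hg : ∀ i ≤ n, g (B i) = Y⁻¹ • (((w : End F V) - 1) ^ i) (B (n - 1)) := by
    intro i hi
    rcases hi.lt_or_eq with h | h
    · have e := H.hB ⟨i, h⟩
      simp only at e
      rw [← e, Basis.constr_basis]
    · rw [h, H.hBn, H.M_pow_n]; simp
  have hdet : LinearMap.det g = 1 := by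
    rw [← LinearMap.det_toMatrix b]
    have h1 := Matrix.det_permute' Fin.revPerm (LinearMap.toMatrix b b g)
    have hent : ∀ i k : Fin n, k ≤ i → (LinearMap.toMatrix b b g).submatrix id Fin.revPerm i k =
        if i = k then Y⁻¹ * ∏ j ∈ Finset.range (Fin.rev k), -d (n - 1 - j) else 0 := by
      intro i k hik
      have e := H.M_pow (Fin.rev k) (Fin.rev k).2
      have e2 : n - 1 - (Fin.rev k : ℕ) = k := by rw [Fin.val_rev]; omega
      rw [e2] at e
      have e3 := H.repr_flag k.2.le e i hik
      rw [map_sub, Finsupp.sub_apply, sub_eq_zero, ← H.hB, map_smul, Basis.repr_self] at e3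
      rw [Matrix.submatrix_apply, LinearMap.toMatrix_apply, id, Fin.revPerm_apply, H.hB,
        hg _ (Fin.rev k).2.le, map_smul, Finsupp.smul_apply, e3]
      simp [Finsupp.single_apply, eq_comm]
    rw [Matrix.det_of_isUpperTriangular (fun i k hik => by
      rw [hent i k (le_of_lt hik), if_neg (ne_of_gt (show k < i from hik))]),
      Finset.prod_congr rfl fun i _ => (hent i i le_rfl).trans (if_pos rfl),
      Equiv.Perm.sign_eq_prod_prod_Iio] at h1
    have hs : (∏ j : Fin n, ∏ i ∈ Finset.Iio j,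
        (if Fin.revPerm i < Fin.revPerm j then 1 else -1 : ℤˣ)) = ∏ j : Fin n, (-1) ^ (j : ℕ) := by
      refine Finset.prod_congr rfl fun j _ => ?_
      rw [Finset.prod_congr rfl (g := fun _ => -1), Finset.prod_const, Fin.card_Iio]
      intro i hi
      rw [Finset.mem_Iio] at hi
      rw [if_neg]
      simpa using hi.le
    have hr : (∏ i : Fin n, Y⁻¹ * ∏ j ∈ Finset.range (Fin.rev i), -d (n - 1 - j)) =
        ∏ j : Fin n, (-1 : F) ^ (j : ℕ) := by
      rw [← Equiv.prod_comp Fin.revPerm]
      simp only [Fin.revPerm_apply, Fin.rev_rev, Finset.prod_neg, Finset.card_range,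
        Finset.prod_mul_distrib, Finset.prod_const, Finset.card_univ, Fintype.card_fin]
      rw [Fin.prod_univ_eq_prod_range (fun k => ∏ j ∈ Finset.range k, d (n - 1 - j)) n, ← hY, mul_left_comm, ← mul_assoc, mul_assoc, ← mul_pow, inv_mul_cancel₀ hY0, one_pow,
        mul_one]
    rw [hs, hr] at h1
    push_cast at h1
    have h2 : (∏ j : Fin n, (-1 : F) ^ (j : ℕ)) ≠ 0 :=
      Finset.prod_ne_zero_iff.2 fun j _ => pow_ne_zero _ (by simp)
    exact (mul_left_cancel₀ h2 ((mul_one _).trans h1)).symm
  let g' : V ≃ₗ[F] V := LinearMap.equivOfDetNeZero g (by rw [hdet]; exact one_ne_zero)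
  have hg' : (g' : V →ₗ[F] V) = g := LinearEquiv.coe_ofIsUnitDet _
  refine ⟨g', by rw [mem_SLV, hg', hdet], ?_⟩
  rw [mul_inv_eq_iff_eq_mul]
  apply LinearEquiv.toLinearMap_injective
  refine b.ext fun i => ?_
  change (g' : V →ₗ[F] V) (v (b i)) = w ((g' : V →ₗ[F] V) (b i))
  rw [hg', H.hB, H.hv _ i.2, map_add, hg _ i.2.le, hg _ i.2, pow_succ', End.mul_apply]
  simp [smul_sub]

end OppPair

end CfsgLib.GenSL
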