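import Mathlib
import Cfsg.Agent.Lib.GenSL.Pair

/-!
The polynomial model `V = F[T]/((T - μ)² f)`: multiplication by `T` is a product `v w` of two
opposite regular unipotent elements, one power of it is a transvection, and it acts on the
transvections with the same centre through a generator of a finite field.
-/

set_option autoImplicit false

namespace CfsgLib.GenSL

open Module CfsgLib.ClMax Polynomial

variable {F : Type*} [Field F]

section Singer

variable {V : Type*} [AddCommGroup V] [Module F V] {X : Subgroup (V ≃ₗ[F] V)}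

theorem hasTv_comp_eigen {x : V ≃ₗ[F] V} (hx : x ∈ X) {a : V} {μ : F} (hμ : μ ≠ 0)
    (ha : x a = μ • a) {φ : Dual F V} (h : HasTv X a φ) :
    HasTv X a (μ⁻¹ • φ ∘ₗ (x : V →ₗ[F] V)) := by
  have h1 := h.conj' (φ' := φ ∘ₗ (x : V →ₗ[F] V)) (X.inv_mem hx)
    fun y => congrArg φ (apply_inv_apply x y)
  have h2 : x⁻¹ a = μ⁻¹ • a := by
    apply x.injective
    rw [apply_inv_apply, map_smul, ha, smul_smul, inv_mul_cancel₀ hμ, one_smul]
  rwa [h2, hasTv_smul_iff] at h1

theorem hasTv_of_singer {K : Type*} [Field K] [Algebra F K] [FiniteDimensional F K] {c : K}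
    {μ : F} (hμ : μ ≠ 0) (hgen : ∀ M : Subring K, μ⁻¹ • c ∈ M → M = ⊤) {x : V ≃ₗ[F] V}
    (hx : x ∈ X) {a : V} (ha : x a = μ • a) (ρ : V →ₗ[F] K) (hρ : ∀ r, ρ (x r) = c * ρ r)
    (hρa : ρ a = 0) {φ₁ : Dual F V} (h0 : φ₁ ≠ 0) (h1 : ∀ r, ρ r = 0 → φ₁ r = 0)
    (h : HasTv X a φ₁) {φ : Dual F V} (hφ : ∀ r, ρ r = 0 → φ r = 0) : HasTv X a φ := by
  have hfac : ∀ φ : Dual F V, (∀ r, ρ r = 0 → φ r = 0) → ∃ l : Dual F K, l ∘ₗ ρ = φ := by
    intro φ hφ
    have : φ ∈ LinearMap.range ρ.dualMap := by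
      rw [LinearMap.range_dualMap_eq_dualAnnihilator_ker, Submodule.mem_dualAnnihilator]
      exact hφ
    exact this
  obtain ⟨l₁, rfl⟩ := hfac φ₁ h1
  obtain ⟨l, rfl⟩ := hfac φ hφ
  let M : Subring K :=
    { carrier := {k | ∀ l : Dual F K, HasTv X a (l ∘ₗ ρ) →
        HasTv X a ((l ∘ₗ LinearMap.mulLeft F k) ∘ₗ ρ)}
      mul_mem' := fun {k k'} hk hk' l hl => (hk' _ (hk l hl)).congr fun y => by simp [mul_assoc]
      one_mem' := fun l hl => hl.congr fun y => by simp
      add_mem' := fun {k k'} hk hk' l hl =>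
        ((hk l hl).add_right (hk' l hl) (by simp [hρa])).congr fun y => by simp [add_mul]
      zero_mem' := fun l _ => (hasTv_zero_right a).congr fun y => by simp
      neg_mem' := fun {k} hk l hl =>
        ((hk l hl).neg_right (by simp [hρa])).congr fun y => by simp }
  have hM : M = ⊤ := hgen M fun l hl =>
    (hasTv_comp_eigen hx hμ ha hl).congr fun y => by simp [hρ]
  let T : K →ₗ[F] Dual F K := (LinearMap.mul F K).compr₂ l₁
  have hT : Function.Injective T := by
    rw [injective_iff_map_eq_zero]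
    intro k hk
    by_contra hk0
    apply h0
    ext y
    have := LinearMap.congr_fun hk (k⁻¹ * ρ y)
    simpa [T, hk0] using this
  obtain ⟨k, rfl⟩ := (LinearMap.injective_iff_surjective_of_finrank_eq_finrank
    (Subspace.dual_finrank_eq (K := F) (V := K)).symm).1 hT l
  have hk : k ∈ M := hM ▸ Subring.mem_top k
  exact (hk l₁ h).congr fun y => by simp [T]

theorem exists_jordan {n : ℕ} (b : Basis (Fin n) F V) (B : ℕ → V) (hB : ∀ i : Fin n, b i = B i)
    (hBn : B n = 0) : ∃ v : V ≃ₗ[F] V, ∀ i < n, v (B i) = B i + B (i + 1) := by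
  let N : End F V := b.constr F fun i : Fin n => B (i + 1)
  have hN : ∀ i < n, N (B i) = B (i + 1) := fun i hi => by
    have e := hB ⟨i, hi⟩
    simp only at e
    rw [← e, Basis.constr_basis]
  have hpow : ∀ k i : ℕ, i + k ≤ n → (N ^ k) (B i) = B (i + k) := by
    intro k i
    induction k with
    | zero => simp
    | succ k ih =>
      intro h
      rw [pow_succ', End.mul_apply, ih (by omega), hN _ (by omega), add_assoc]
  have hnil : IsNilpotent N := ⟨n, b.ext fun i => by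
    have e : N ^ n = N ^ (i : ℕ) * N ^ (n - i) := by rw [← pow_add]; congr 1; omega
    rw [e, End.mul_apply, hB, hpow _ _ (by omega), show i + (n - i) = n by omega, hBn, map_zero]
    rfl⟩
  refine ⟨LinearEquiv.ofBijective (1 + N) ((End.isUnit_iff _).1 hnil.isUnit_one_add),
    fun i hi => ?_⟩
  simp [hN i hi]

end Singer

section Seq

theorem mem_flag_of_degree_lt {Q : ℕ → F[X]} {j : ℕ}
    (hQ : ∀ i < j, (Q i).Monic ∧ (Q i).natDegree = i) {P : F[X]} (hP : P.degree < j) :
    P ∈ flag F Q j := by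
  induction j generalizing P with
  | zero =>
    have : P = 0 := by
      ext m
      exact (degree_lt_iff_coeff_zero P 0).1 hP m m.zero_le
    simp [this]
  | succ j ih =>
    obtain ⟨h1, h2⟩ := hQ j j.lt_succ_self
    have h3 : (P - P.coeff j • Q j).degree < j := by
      rw [degree_lt_iff_coeff_zero] at hP ⊢
      intro m hm
      rcases hm.lt_or_eq with h | rfl
      · simp [hP m h, coeff_eq_zero_of_natDegree_lt (h2.trans_lt h)]
      · have : (Q j).coeff j = 1 := by simpa [h2] using h1.coeff_natDegree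
        simp [this]
    have := Submodule.add_mem _ (flag_mono Q j.le_succ (ih (fun i hi => hQ i (by omega)) h3))
      (Submodule.smul_mem _ (P.coeff j) (mem_flag (B := Q) j.lt_succ_self))
    simpa using this

theorem mem_flag_add_of_degree_lt {Q : ℕ → F[X]} {j : ℕ}
    (hQ : ∀ i ≤ j, (Q i).Monic ∧ (Q i).natDegree = i ∧ (Q i).coeff 0 = (-1) ^ i) {P : F[X]}
    (hP : P.degree < (j + 1 : ℕ)) (h0 : P.coeff 0 = 0) :
    P ∈ flag F (fun i => Q i + Q (i + 1)) j := by
  induction j generalizing P with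
  | zero =>
    have : P = 0 := by
      ext m
      rcases m.eq_zero_or_pos with rfl | h
      · exact h0
      · exact (degree_lt_iff_coeff_zero P 1).1 hP m h
    simp [this]
  | succ j ih =>
    obtain ⟨h1, h2, h3⟩ := hQ (j + 1) le_rfl
    obtain ⟨-, h2', h3'⟩ := hQ j j.le_succ
    have h4 : (P - P.coeff (j + 1) • (Q j + Q (j + 1))).degree < (j + 1 : ℕ) := by
      rw [degree_lt_iff_coeff_zero] at hP ⊢
      intro m hm
      have e := coeff_eq_zero_of_natDegree_lt (p := Q j) (n := m) (by omega)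
      rcases hm.lt_or_eq with h | rfl
      · simp [hP m h, e, coeff_eq_zero_of_natDegree_lt (h2.trans_lt h)]
      · have : (Q (j + 1)).coeff (j + 1) = 1 := by simpa [h2] using h1.coeff_natDegree
        simp [this, e]
    have := Submodule.add_mem _ (flag_mono _ j.le_succ (ih (fun i hi => hQ i (by omega)) h4
      (by simp [h0, h3, h3', pow_succ])))
      (Submodule.smul_mem _ (P.coeff (j + 1))
        (mem_flag (B := fun i => Q i + Q (i + 1)) j.lt_succ_self))
    simpa using this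

/-- Multiplication by `T` on `F[T]/(Q n)` is `v w` for an opposite pair. -/
theorem exists_oppPair {n : ℕ} (hn : 0 < n) {Q : ℕ → F[X]} {χ : F[X]}
    (hQ : ∀ i ≤ n, (Q i).Monic ∧ (Q i).natDegree = i ∧ (Q i).coeff 0 = (-1) ^ i) (hχ : Q n = χ)
    {d : ℕ → F}
    (hd : ∀ i, i + 1 < n → d (i + 1) = (Q (i + 2)).coeff (i + 1) + 1 - (Q (i + 1)).coeff i)
    (hd0 : ∀ i, i + 1 < n → d (i + 1) ≠ 0) :
    ∃ (b : Basis (Fin n) F (AdjoinRoot χ)) (v w : AdjoinRoot χ ≃ₗ[F] AdjoinRoot χ),
      OppPair b (fun i => AdjoinRoot.mk χ (Q i)) d v w ∧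
        ∀ r, (v * w) r = AdjoinRoot.root χ * r := by
  obtain ⟨hm, hdeg, hc0⟩ := hQ n le_rfl
  rw [hχ] at hm hdeg hc0
  haveI := hm.finite_adjoinRoot
  let mk : F[X] →ₗ[F] AdjoinRoot χ := (AdjoinRoot.mkₐ χ).toLinearMap
  have hmk : ∀ P, mk P = AdjoinRoot.mk χ P := fun _ => rfl
  have hspan : ⊤ ≤ Submodule.span F (Set.range fun i : Fin n => AdjoinRoot.mk χ (Q i)) := by
    intro r _
    obtain ⟨P, rfl⟩ := AdjoinRoot.mk_surjective r
    have e : AdjoinRoot.mk χ P = mk (P %ₘ χ) := by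
      rw [hmk, AdjoinRoot.mk_eq_mk]
      exact ⟨P /ₘ χ, by rw [sub_eq_iff_eq_add', modByMonic_add_div]⟩
    rw [e]
    refine map_flag_le (B := Q) (j := n) (fun i hi => Submodule.subset_span
      (Set.mem_range_self (f := fun i : Fin n => AdjoinRoot.mk χ (Q i)) ⟨i, hi⟩))
      (mem_flag_of_degree_lt (fun i hi => ⟨(hQ i hi.le).1, (hQ i hi.le).2.1⟩) ?_)
    have := degree_modByMonic_lt P hm
    rwa [degree_eq_natDegree hm.ne_zero, hdeg] at this
  let b := basisOfTopLeSpanOfCardEqFinrank _ hspan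
    (by rw [(AdjoinRoot.powerBasis' hm).finrank]; simp [hdeg])
  have hb : ∀ i : Fin n, b i = AdjoinRoot.mk χ (Q i) := fun i => by
    simp [b]
  have hBn : AdjoinRoot.mk χ (Q n) = 0 := by rw [hχ, AdjoinRoot.mk_self]
  obtain ⟨v, hv⟩ := exists_jordan b (fun i => AdjoinRoot.mk χ (Q i)) hb hBn
  have hu : IsUnit (AdjoinRoot.root χ) := by
    have e := congrArg (AdjoinRoot.mk χ) (X_mul_divX_add χ)
    rw [AdjoinRoot.mk_self, map_add, map_mul, AdjoinRoot.mk_X, hc0, C_pow, C_neg, C_1, map_pow,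
      map_neg, map_one] at e
    have : IsUnit (AdjoinRoot.root χ * AdjoinRoot.mk χ χ.divX) := by
      rw [eq_neg_of_add_eq_zero_left e]
      exact (isUnit_one.neg.pow n).neg
    exact isUnit_of_mul_isUnit_left this
  let x := Units.mulLeftLinearEquiv F (AdjoinRoot χ) hu.unit
  have hx : ∀ r, (v * (v⁻¹ * x)) r = AdjoinRoot.root χ * r := fun r => by
    rw [mul_inv_cancel_left]; rfl
  have key : ∀ (j : ℕ) (y : AdjoinRoot χ) (P : F[X]), j < n → v y = mk P →
      P.degree < (j + 1 : ℕ) → P.coeff 0 = 0 →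
        y ∈ flag F (fun i => AdjoinRoot.mk χ (Q i)) j := by
    intro j y P hj hy h1 h2
    have h3 := mem_flag_add_of_degree_lt (fun i hi => hQ i (by omega)) h1 h2
    have h4 := map_flag_le (M := mk)
      (U := (flag F (fun i => AdjoinRoot.mk χ (Q i)) j).map (v : _ →ₗ[F] _))
      (fun i hi => ⟨_, mem_flag hi, by rw [map_add]; exact hv i (by omega)⟩) h3
    obtain ⟨z, hz, e⟩ := h4
    rwa [← v.injective (e.trans hy.symm)]
  have hco : ∀ i ≤ n, (Q i).coeff i = 1 := fun i hi => by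
    simpa [(hQ i hi).2.1] using (hQ i hi).1.coeff_natDegree
  have hz : ∀ i ≤ n, ∀ m, i < m → (Q i).coeff m = 0 := fun i hi m hm =>
    coeff_eq_zero_of_natDegree_lt ((hQ i hi).2.1.trans_lt hm)
  refine ⟨b, v, v⁻¹ * x, ⟨hn, hb, hBn, hv, ?_, fun i hi => ?_, hd0⟩, hx⟩
  · rw [← sub_eq_zero, ← Submodule.mem_bot F,
      ← flag_zero (fun i => AdjoinRoot.mk χ (Q i))]
    refine key 0 _ (X * Q 0 - (Q 0 + Q 1)) hn ?_ ?_ ?_
    · rw [map_sub, hv 0 hn]
      change (v * (v⁻¹ * x)) _ - _ = _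
      rw [hx]
      simp [hmk]
    · rw [degree_lt_iff_coeff_zero]
      intro m hm
      obtain ⟨m, rfl⟩ : ∃ k, m = k + 1 := ⟨m - 1, by omega⟩
      rw [coeff_sub, coeff_add, coeff_X_mul, hz 0 hn.le _ m.succ_pos]
      rcases m.eq_zero_or_pos with rfl | h
      · simp [hco 0 hn.le, hco 1 hn]
      · simp [hz 0 hn.le _ h, hz 1 hn (m + 1) (by omega)]
    · simp [(hQ 0 hn.le).2.2, (hQ 1 hn).2.2]
  · refine key i _ (X * Q (i + 1) - (Q (i + 1) + Q (i + 2)) + d (i + 1) • (Q i + Q (i + 1)))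
      (by omega) ?_ ?_ ?_
    · rw [map_add, map_sub, map_smul, hv _ hi, hv i (by omega)]
      change (v * (v⁻¹ * x)) _ - _ + _ = _
      rw [hx, map_add, map_smul]
      simp [hmk]
    · rw [degree_lt_iff_coeff_zero]
      intro m hm
      obtain ⟨m, rfl⟩ : ∃ k, m = k + 1 := ⟨m - 1, by omega⟩
      simp only [coeff_sub, coeff_add, coeff_X_mul, coeff_smul, smul_eq_mul]
      rw [hz i (by omega) _ (by omega)]
      rcases (show i ≤ m by omega).lt_or_eq with h | rfl
      · rw [hz (i + 1) hi.le (m + 1) (by omega)]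
        rcases (show i + 1 ≤ m by omega).lt_or_eq with h | rfl
        · simp [hz (i + 1) hi.le _ h, hz (i + 2) hi (m + 1) (by omega)]
        · simp [hco (i + 1) hi.le, hco (i + 2) hi]
      · rw [hd i hi, hco (i + 1) hi.le]
        ring
    · simp [(hQ i (by omega)).2.2, (hQ (i + 1) hi.le).2.2, (hQ (i + 2) hi).2.2, pow_succ]

end Seq

end CfsgLib.GenSL
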