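import Mathlib
import Cfsg.Agent.Lib.GenSL.Poly

/-!
Generation of `SL_n(F)`, `n ≥ 4`, by a conjugate pair of regular unipotent elements from a
suitable sequence of monic polynomials.
-/

set_option autoImplicit false

namespace CfsgLib.GenSL

open Module CfsgLib.ClMax Polynomial

variable {F : Type*} [Field F]

/-- The conclusion: two conjugate regular unipotent elements generate `SL_n(F)`. -/
def GenPair (n : ℕ) (F : Type*) [Field F] : Prop :=
  ∃ u g : Matrix.SpecialLinearGroup (Fin n) F,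
    (IsNilpotent ((u : Matrix (Fin n) (Fin n) F) - 1) ∧
      ((u : Matrix (Fin n) (Fin n) F) - 1) ^ (n - 1) ≠ 0) ∧
    Subgroup.closure ({u, g * u * g⁻¹} : Set (Matrix.SpecialLinearGroup (Fin n) F)) = ⊤

theorem exists_pow_sub_one_eq {K : Type*} [Field K] [Algebra F K] [Finite K] {c : K} (hc : c ≠ 0)
    {μ : F} (hμ : μ ≠ 0) (hf : (minpoly F c).eval μ ≠ 0) :
    ∃ (N : ℕ) (h : F[X]), X ^ N - 1 = (X - C μ) * minpoly F c * h ∧ h.eval μ ≠ 0 := by
  classical
  haveI := Fintype.ofFinite K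
  have hinj := (algebraMap F K).injective
  have h1 : minpoly F c ∣ X ^ (Fintype.card K - 1) - 1 :=
    minpoly.dvd F c (by simp [FiniteField.pow_card_sub_one_eq_one c hc])
  have h2 : X - C μ ∣ X ^ (Fintype.card K - 1) - 1 := by
    rw [dvd_iff_isRoot]
    have := FiniteField.pow_card_sub_one_eq_one (algebraMap F K μ) (by simpa using hμ)
    rw [← map_pow, ← map_one (algebraMap F K)] at this
    simp [hinj this]
  have h3 : IsCoprime (X - C μ) (minpoly F c) := by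
    rw [(irreducible_X_sub_C μ).coprime_iff_not_dvd, dvd_iff_isRoot]
    exact hf
  obtain ⟨h, hh⟩ := h3.mul_dvd h2 h1
  refine ⟨_, h, hh, fun h0 => ?_⟩
  have hsep : (X ^ (Fintype.card K - 1) - 1 : F[X]).Separable := by
    rw [X_pow_sub_one_separable_iff]
    intro e
    have e2 := congrArg (algebraMap F K) e
    rw [map_natCast, map_zero, Nat.cast_sub Fintype.card_pos, FiniteField.cast_card_eq_zero] at e2
    simp at e2
  obtain ⟨k, rfl⟩ := dvd_iff_isRoot.2 h0
  refine (irreducible_X_sub_C μ).not_isUnit (hsep.squarefree _ ⟨minpoly F c * k, ?_⟩)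
  rw [hh]
  ring

theorem genPair_of_seq {K : Type*} [Field K] [Algebra F K] [Finite K] {c : K} {μ : F}
    (hμ : μ ≠ 0) (hgen : ∀ M : Subring K, μ⁻¹ • c ∈ M → M = ⊤)
    (hf : (minpoly F c).eval μ ≠ 0) {n : ℕ} (hn : 4 ≤ n) {Q : ℕ → F[X]}
    (hQ : ∀ i ≤ n, (Q i).Monic ∧ (Q i).natDegree = i ∧ (Q i).coeff 0 = (-1) ^ i)
    (hχ : Q n = (X - C μ) ^ 2 * minpoly F c) {d : ℕ → F}
    (hd : ∀ i, i + 1 < n → d (i + 1) = (Q (i + 2)).coeff (i + 1) + 1 - (Q (i + 1)).coeff i)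
    (hd0 : ∀ i, i + 1 < n → d (i + 1) ≠ 0) {Y : F}
    (hY : Y ^ n = ∏ k ∈ Finset.range n, ∏ j ∈ Finset.range k, d (n - 1 - j))
    {J : Type*} [Fintype J] (ι : J → ℕ) (hι : ∀ j, ι j < n) (α : J → F)
    (hα : (X - C μ) * minpoly F c = ∑ j, α j • Q (ι j)) (e : ℕ → F)
    (he : ∀ i < n, e i + e (i + 1) = (Q i).eval μ) (hen : e n = 0)
    (hP : (∑ j, α j * (Q (ι j + 1)).eval μ = 0 ∧ ∑ j, α j * e (ι j) ≠ 0) ∨
      (∑ j, α j * (Q (ι j + 1)).eval μ ≠ 0 ∧ ∑ j, α j * e (ι j) = 0)) : GenPair n F := by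
  classical
  haveI : FiniteDimensional F K := Module.Finite.of_finite
  set f := minpoly F c with hfdef
  set χ := (X - C μ) ^ 2 * f with hχdef
  obtain ⟨b, v, w, H, hx⟩ := exists_oppPair (by omega) hQ hχ hd hd0
  haveI : FiniteDimensional F (AdjoinRoot χ) := Module.Finite.of_basis b
  obtain ⟨g, hg, hgv⟩ := H.conj hY
  refine exists_SL_of_basis b hg H.N_nilpotent H.N_pow_ne ?_
  rw [hgv]
  set G := Subgroup.closure ({v, w} : Set (AdjoinRoot χ ≃ₗ[F] AdjoinRoot χ))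
  have hv : v ∈ G := Subgroup.subset_closure (by simp)
  have hw : w ∈ G := Subgroup.subset_closure (by simp)
  have hxG : v * w ∈ G := G.mul_mem hv hw
  have hint : IsIntegral F c := Algebra.IsIntegral.isIntegral c
  let ψ' : AdjoinRoot χ →ₐ[F] F :=
    AdjoinRoot.liftAlgHom χ (AlgHom.id F F) μ (by simp [χ])
  let ψ : Dual F (AdjoinRoot χ) := ψ'.toLinearMap
  have hψ : ∀ P, ψ (AdjoinRoot.mk χ P) = P.eval μ := fun P => by simp [ψ, ψ', eval₂_id]
  have hψm : ∀ r s, ψ (r * s) = ψ r * ψ s := fun r s => map_mul ψ' r s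
  let ρ' : AdjoinRoot χ →ₐ[F] K :=
    AdjoinRoot.liftAlgHom χ (Algebra.ofId F K) c (by
      change aeval c χ = 0
      simp [χ, f])
  let ρ : AdjoinRoot χ →ₗ[F] K := ρ'.toLinearMap
  have hρ : ∀ P, ρ (AdjoinRoot.mk χ P) = aeval c P := fun P => rfl
  have hsm : ∀ (t : F) (P : F[X]), AdjoinRoot.mk χ (t • P) = t • AdjoinRoot.mk χ P :=
    fun t P => map_smul (AdjoinRoot.mkₐ χ) t P
  set a := AdjoinRoot.mk χ ((X - C μ) * f) with ha
  set a' := AdjoinRoot.mk χ f with ha'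
  have hmula : ∀ r, r * a = ψ r • a := by
    intro r
    obtain ⟨P, rfl⟩ := AdjoinRoot.mk_surjective r
    rw [hψ, ha, ← hsm, ← map_mul, AdjoinRoot.mk_eq_mk]
    obtain ⟨k, hk⟩ := X_sub_C_dvd_sub_C_eval (p := P) (a := μ)
    refine ⟨k, ?_⟩
    rw [smul_eq_C_mul, ← sub_mul, hk, hχdef]
    ring
  have hψa : ψ a = 0 := by rw [ha, hψ]; simp
  have hψθ : ψ (AdjoinRoot.root χ) = μ := by rw [← AdjoinRoot.mk_X, hψ, eval_X]
  have hxa : (v * w) a = μ • a := by rw [hx, hmula, hψθ]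
  have hxa' : (v * w) a' = μ • a' + a := by
    rw [hx, ha, ha', ← hsm, ← AdjoinRoot.mk_X, ← map_mul, ← map_add, smul_eq_C_mul]
    congr 1
    ring
  have hmon : f.Monic := minpoly.monic hint
  have ha0 : a ≠ 0 := by
    refine AdjoinRoot.mk_ne_zero_of_natDegree_lt (((monic_X_sub_C μ).pow 2).mul hmon)
      ((monic_X_sub_C μ).mul hmon).ne_zero ?_
    rw [(monic_X_sub_C μ).natDegree_mul hmon, ((monic_X_sub_C μ).pow 2).natDegree_mul hmon,
      natDegree_pow, natDegree_X_sub_C]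
    omega
  have hker : ∀ φ : Dual F (AdjoinRoot χ), φ a = 0 → φ a' = 0 → ∀ r, ρ r = 0 → φ r = 0 := by
    intro φ h1 h2 r hr
    obtain ⟨P, rfl⟩ := AdjoinRoot.mk_surjective r
    rw [hρ] at hr
    obtain ⟨k, rfl⟩ := minpoly.dvd F c hr
    obtain ⟨k', hk'⟩ := X_sub_C_dvd_sub_C_eval (p := k) (a := μ)
    have : AdjoinRoot.mk χ (minpoly F c * k) = k.eval μ • a' + AdjoinRoot.mk χ k' * a := by
      rw [ha, ha', ← hsm, ← map_mul, ← map_add, smul_eq_C_mul, eq_add_of_sub_eq hk']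
      congr 1
      simp only [eval_add, eval_mul, eval_sub, eval_X, eval_C, sub_self, zero_mul, zero_add]
      ring
    rw [this, hmula, map_add, map_smul, map_smul, h1, h2]
    simp
  -- a power of `v w` is a transvection
  have hc : c ≠ 0 := by
    intro h0
    have := (hQ n le_rfl).2.2
    rw [hχ, hχdef, hfdef, h0, minpoly.zero, coeff_zero_eq_eval_zero] at this
    simp only [eval_mul, eval_X, mul_zero] at this
    exact pow_ne_zero n (neg_ne_zero.2 one_ne_zero) this.symm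
  obtain ⟨N, h, hN, hh⟩ := exists_pow_sub_one_eq hc hμ hf
  have hxN : ∀ (k : ℕ) r, ((v * w) ^ k) r = AdjoinRoot.root χ ^ k * r := by
    intro k
    induction k with
    | zero => simp
    | succ k ih =>
      intro r
      rw [pow_succ, LinearEquiv.mul_apply, ih, hx, pow_succ, mul_assoc]
  have hT : HasTv G a (h.eval μ • ψ) := by
    refine ⟨(v * w) ^ N, G.pow_mem hxG N, fun r => ?_⟩
    have e1 := congrArg (AdjoinRoot.mk χ) hN
    rw [map_sub, map_pow, AdjoinRoot.mk_X, map_one, map_mul, ← ha, sub_eq_iff_eq_add] at e1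
    rw [hxN, e1, add_mul, one_mul, add_comm, mul_assoc, mul_comm a, hmula, hψm, hψ]
    simp
  -- the values of `ψ` at `v a` and `v⁻¹ a`
  have hasum : a = ∑ j, α j • AdjoinRoot.mk χ (Q (ι j)) := by
    rw [ha, hα, map_sum]
    exact Finset.sum_congr rfl fun j _ => hsm _ _
  have hP1 : ψ (v a) = ∑ j, α j * (Q (ι j + 1)).eval μ := by
    have e1 : ψ (v a) - ψ a = ∑ j, α j * (Q (ι j + 1)).eval μ := by
      rw [hasum, map_sum, map_sum, map_sum, ← Finset.sum_sub_distrib]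
      refine Finset.sum_congr rfl fun j _ => ?_
      rw [map_smul, H.hv _ (hι j), map_smul, map_smul, map_add, hψ, hψ]
      simp only [smul_eq_mul]
      ring
    rwa [hψa, sub_zero] at e1
  have hP2 : ψ (v⁻¹ a) = ∑ j, α j * e (ι j) := by
    have key : ∀ k i, i + k = n → ψ (v⁻¹ (AdjoinRoot.mk χ (Q i))) = e i := by
      intro k
      induction k with
      | zero =>
        intro i hi
        rw [show i = n from hi, H.hBn, hen, map_zero, map_zero]
      | succ k ih =>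
        intro i hi
        have e1 := congrArg (fun y => ψ (v⁻¹ y)) (H.hv i (by omega))
        simp only [inv_apply_apply, map_add] at e1
        rw [ih (i + 1) (by omega), hψ, ← he i (by omega)] at e1
        exact (add_right_cancel e1).symm
    rw [hasum, map_sum, map_sum]
    refine Finset.sum_congr rfl fun j _ => ?_
    rw [map_smul, map_smul, key (n - ι j) _ (by have := hι j; omega), smul_eq_mul]
  have hψ1 : ψ 1 = 1 := map_one ψ'
  have hstab : v ∉ stabV (LinearMap.ker ψ) := by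
    intro h1
    have h2 : v * w ∈ stabV (LinearMap.ker ψ) := mem_stabV_of_le fun r hr => by
      rw [LinearMap.mem_ker] at hr ⊢
      rw [hx, hψm, hr, mul_zero]
    have h3 : w ∈ stabV (LinearMap.ker ψ) := (Subgroup.mul_mem_cancel_left _ h1).1 h2
    rcases H.irr h1 h3 (LinearMap.ker ψ) (fun k hk r hr => (mem_stabV.1 hk r).1 hr) with e | e
    · exact ha0 ((Submodule.eq_bot_iff _).1 e a hψa)
    · have : (1 : AdjoinRoot χ) ∈ LinearMap.ker ψ := e ▸ Submodule.mem_top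
      rw [LinearMap.mem_ker, hψ1] at this
      exact one_ne_zero this
  obtain ⟨k, hk, hk1, hk2, hk3⟩ : ∃ k ∈ G, ψ (k a) = 0 ∧ ψ (k⁻¹ a) ≠ 0 ∧
      k ∉ stabV (LinearMap.ker ψ) := by
    rw [← hP1, ← hP2] at hP
    rcases hP with h1 | h1
    · exact ⟨v, hv, h1.1, h1.2, hstab⟩
    · exact ⟨v⁻¹, G.inv_mem hv, h1.2, by simpa using h1.1, by simpa using hstab⟩
  have hT1 := hT.conj' (φ' := h.eval μ • ψ ∘ₗ (k : AdjoinRoot χ →ₗ[F] AdjoinRoot χ)) (G.inv_mem hk)
    fun y => by simp [apply_inv_apply]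
  have hT2 := hT.comm hT1 (by simp [hψa]) (by simp [apply_inv_apply, hψa]) (by simp [hk1])
  set φ₀ := (h.eval μ • ψ) (k⁻¹ a) • h.eval μ • ψ ∘ₗ (k : AdjoinRoot χ →ₗ[F] AdjoinRoot χ) with hφ₀
  have hφa : φ₀ a = 0 := by simp [hφ₀, hk1]
  have hxa2 : v (w a) = μ • a := hxa
  have hxa2' : v (w a') = μ • a' + a := hxa'
  have hk2' : ψ (k.symm a) ≠ 0 := hk2
  have hT3 := (hasTv_comp_eigen hxG hμ hxa hT2).sub_right hT2 (by simp [hxa2, hφa]) hφa
  refine SLV_le_of_plane (a' := a') (by rw [finrank_eq_card_basis b]; simpa using hn)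
    (H.irr hv hw) ha0 fun φ h1 h2 => ?_
  refine hasTv_of_singer hμ hgen hxG hxa ρ (fun r => ?_) ?_ ?_ (hker _ ?_ ?_) hT3 (hker φ h1 h2)
  · rw [hx]
    change ρ' _ = c * ρ' r
    simp [ρ']
  · rw [ha, hρ]
    simp [f]
  · intro h0
    apply hk3
    refine mem_stabV_of_le fun r hr => ?_
    obtain ⟨P, rfl⟩ := AdjoinRoot.mk_surjective r
    rw [LinearMap.mem_ker, hψ] at hr
    obtain ⟨P', rfl⟩ := dvd_iff_isRoot.2 hr
    have e1 := LinearMap.congr_fun h0 (AdjoinRoot.mk χ P')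
    have e2 : AdjoinRoot.mk χ ((X - C μ) * P') =
        (v * w) (AdjoinRoot.mk χ P') - μ • AdjoinRoot.mk χ P' := by
      rw [hx, ← hsm, ← AdjoinRoot.mk_X, ← map_mul, ← map_sub, smul_eq_C_mul, sub_mul]
    have e3 : φ₀ (AdjoinRoot.mk χ ((X - C μ) * P')) = 0 := by
      rw [e2, map_sub, map_smul]
      simp only [LinearMap.sub_apply, LinearMap.smul_apply, LinearMap.comp_apply,
        LinearEquiv.coe_coe, LinearMap.zero_apply, smul_eq_mul] at e1 ⊢
      rw [← mul_zero μ, ← e1]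
      field_simp
    simpa [hφ₀, hh, hk2'] using e3
  · simp [hxa2, hφa]
  · simp [hxa2', hφa, hμ]

end CfsgLib.GenSL
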