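import Mathlib
import Cfsg.Agent.Lib.GenSL.Model
import Cfsg.Agent.Lib.GenSL.Field

/-!
`SL_n(q)`, `n ≥ 4`, is generated by two conjugate regular unipotent elements.
-/

set_option autoImplicit false

namespace CfsgLib.GenSL

open Module CfsgLib.ClMax Polynomial

variable {F : Type*} [Field F]

/-- The negatives of the superdiagonal entries of `w`: `z, y, 1, …, 1, z y²`. -/
def dSeq (k : ℕ) (y z : F) (i : ℕ) : F :=
  if i = 1 then z else if i = 2 then y else if i = k + 3 then z * y ^ 2 else 1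

theorem dSeq_ne_zero (k : ℕ) {y z : F} (hy : y ≠ 0) (hz : z ≠ 0) (i : ℕ) : dSeq k y z i ≠ 0 := by
  unfold dSeq
  split_ifs <;> simp [hy, hz]

theorem dSeq_prod (k : ℕ) (y z : F) : (z * y ^ 2) ^ (k + 4) =
    ∏ j ∈ Finset.range (k + 4), ∏ i ∈ Finset.range j, dSeq k y z (k + 4 - 1 - i) := by
  have h1 : ∀ j ≤ k, ∏ i ∈ Finset.range (j + 1), dSeq k y z (k + 4 - 1 - i) = z * y ^ 2 := by
    intro j hj
    rw [Finset.prod_range_succ', Finset.prod_eq_one, one_mul]
    · simp [dSeq]
    · intro i hi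
      rw [Finset.mem_range] at hi
      rw [dSeq, if_neg (by omega), if_neg (by omega), if_neg (by omega)]
  have h2 : dSeq k y z (k + 4 - 1 - (k + 1)) = y := by
    rw [show k + 4 - 1 - (k + 1) = 2 by omega]; simp [dSeq]
  have h3 : dSeq k y z (k + 4 - 1 - (k + 2)) = z := by
    rw [show k + 4 - 1 - (k + 2) = 1 by omega]; simp [dSeq]
  rw [Finset.prod_range_succ _ (k + 3), Finset.prod_range_succ _ (k + 2),
    Finset.prod_range_succ' _ (k + 1), Finset.prod_range_succ _ (k + 2),
    Finset.prod_range_succ _ (k + 1), h1 k le_rfl, h2, h3,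
    Finset.prod_congr rfl fun j hj => h1 j (by rw [Finset.mem_range] at hj; omega)]
  simp only [Finset.prod_const, Finset.card_range, Finset.range_zero, Finset.prod_empty]
  ring

theorem monic_of_coeff {P : F[X]} {i : ℕ} (h1 : P.coeff i = 1) (h2 : P.natDegree ≤ i) :
    P.Monic ∧ P.natDegree = i :=
  ⟨monic_of_natDegree_le_of_coeff_eq_one i h2 h1,
    natDegree_eq_of_le_of_coeff_ne_zero h2 (h1 ▸ one_ne_zero)⟩

theorem exists_low (z s : F) : ∃ P : ℕ → F[X],
    (∀ i, (P i).Monic ∧ (P i).natDegree = i ∧ (P i).coeff 0 = (-1) ^ i) ∧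
    (P 2).coeff 1 = z - 2 ∧ (∀ i, (P (i + 3)).coeff (i + 2) = s) ∧ (P 0).eval 1 = 1 ∧
    (P 1).eval 1 = 0 ∧ (P 2).eval 1 = z ∧ ∀ i, (P (i + 3)).eval 1 = 0 := by
  refine ⟨fun i => match i with
    | 0 => 1
    | 1 => X - 1
    | 2 => X ^ 2 + C (z - 2) * X + 1
    | i + 3 => X ^ (i + 3) + C s * X ^ (i + 2) + C (-1 - s - (-1) ^ (i + 3)) * X +
        C ((-1) ^ (i + 3)), fun i => ?_, ?_, fun i => ?_, ?_, ?_, ?_, fun i => ?_⟩
  · rw [← and_assoc]
    match i with
    | 0 => simp
    | 1 => exact ⟨monic_of_coeff (by simp [coeff_one]) (by simp only; compute_degree), by simp⟩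
    | 2 => exact ⟨monic_of_coeff (by simp only [coeff_add, coeff_C_mul]; simp [coeff_one, coeff_X])
        (by simp only; compute_degree), by simp⟩
    | i + 3 => exact ⟨monic_of_coeff
        (by simp only [coeff_add, coeff_C_mul, coeff_C]; simp [coeff_X])
        (by simp only; compute_degree <;> omega),
        by simp only [coeff_add, coeff_C_mul, coeff_C]; simp⟩
  · simp only [coeff_add, coeff_C_mul]; simp [coeff_one]
  · simp only [coeff_add, coeff_C_mul, coeff_C]; simp [coeff_X]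
  · simp
  · simp
  · simp only [eval_add, eval_mul, eval_C]; simp; ring
  · simp only [eval_add, eval_mul, eval_C]; simp; ring

theorem mul_facts {f : F[X]} (hf : f.Monic) {m : ℕ} (hm : f.natDegree = m) (μ : F) (j : ℕ) :
    ((X - C μ) ^ (j + 1) * f).Monic ∧ ((X - C μ) ^ (j + 1) * f).natDegree = m + j + 1 ∧
      ((X - C μ) ^ (j + 1) * f).coeff 0 = (-μ) ^ (j + 1) * f.coeff 0 ∧
      ((X - C μ) ^ (j + 1) * f).coeff (m + j) = f.nextCoeff - (j + 1) * μ := by
  have h1 := (monic_X_sub_C μ).pow (j + 1)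
  have h2 : ((X - C μ) ^ (j + 1) * f).natDegree = m + j + 1 := by
    rw [h1.natDegree_mul hf, natDegree_pow, natDegree_X_sub_C, hm]; ring
  refine ⟨h1.mul hf, h2, by simp [coeff_zero_eq_eval_zero], ?_⟩
  have h3 := h1.nextCoeff_mul hf
  rw [nextCoeff_of_natDegree_pos (by omega), h2, (monic_X_sub_C μ).nextCoeff_pow,
    nextCoeff_X_sub_C] at h3
  rw [show m + j = m + j + 1 - 1 from rfl, h3]
  simp
  ring

variable {K : Type*} [Field K] [Algebra F K] [Finite K] {c : K}

theorem genPair_five (hgen : ∀ M : Subring K, c ∈ M → M = ⊤) {k : ℕ}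
    (hdeg : (minpoly F c).natDegree = k + 3) (h0 : (minpoly F c).coeff 0 = (-1) ^ (k + 3))
    {y z : F} (hy : y ≠ 0) (hz : z ≠ 0)
    (hs : z * (1 + y ^ 2) + y = 2 + (minpoly F c).nextCoeff) : GenPair (k + 5) F := by
  haveI : FiniteDimensional F K := Module.Finite.of_finite
  have hint : IsIntegral F c := Algebra.IsIntegral.isIntegral c
  have hroot : (minpoly F c).eval 1 ≠ 0 :=
    (minpoly.irreducible hint).not_isRoot_of_natDegree_ne_one (by omega)
  obtain ⟨a1, a2, a3, a4⟩ := mul_facts (minpoly.monic hint) hdeg 1 0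
  obtain ⟨c1, c2, c3, c4⟩ := mul_facts (minpoly.monic hint) hdeg 1 1
  simp only [zero_add, pow_one, add_zero, h0, Nat.reduceAdd] at a1 a2 a3 a4 c1 c2 c3 c4
  obtain ⟨P, p1, p2, p3, p4, p5, p6, p7⟩ := exists_low z (z + y - 3)
  have pz : ∀ i m, i < m → (P i).coeff m = 0 := fun i m h =>
    coeff_eq_zero_of_natDegree_lt ((p1 i).2.1.trans_lt h)
  have pc : (P (k + 3)).coeff (k + 3) = 1 := by
    simpa [(p1 (k + 3)).2.1] using (p1 (k + 3)).1.coeff_natDegree
  set a := (X - C 1) * minpoly F c with ha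
  set χ := (X - C 1) ^ 2 * minpoly F c with hχ
  have ac : a.coeff (k + 4) = 1 := by simpa [a2] using a1.coeff_natDegree
  set δ := z * y ^ 2 with hδ
  set α₂ := (-1) ^ (k + 4) * δ with hα₂
  set α₀ := -z * α₂ with hα₀
  set L := a - δ • P (k + 3) - α₂ • P 2 - α₀ • P 1 - α₀ • P 0 with hL
  have l1 : L.Monic ∧ L.natDegree = k + 4 := by
    refine monic_of_coeff (by simp [hL, ac, pz]) ?_
    rw [natDegree_le_iff_coeff_eq_zero]
    intro m hm
    simp [hL, coeff_eq_zero_of_natDegree_lt (a2.trans_lt hm), pz _ m (show k + 3 < m by omega),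
      pz _ m (show 2 < m by omega), pz _ m (show 1 < m by omega), pz _ m (show 0 < m by omega)]
  have l2 : L.coeff 0 = (-1) ^ (k + 4) := by
    simp only [hL, coeff_sub, coeff_smul, a3, (p1 _).2.2, smul_eq_mul, hα₂]
    ring
  have l3 : L.coeff (k + 3) = z + y - 3 := by
    simp only [hL, coeff_sub, coeff_smul, a4, pc, pz 2 (k + 3) (by omega),
      pz 1 (k + 3) (by omega), pz 0 (k + 3) (by omega), smul_eq_mul]
    push_cast
    linear_combination -hs
  have l4 : L.eval 1 = 0 := by
    simp only [hL, eval_sub, eval_smul, p4, p5, p6, p7, smul_eq_mul, ha, eval_mul, eval_X, eval_C]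
    ring
  let Q : ℕ → F[X] := fun i => if i ≤ k + 3 then P i else if i = k + 4 then L else χ
  have q1 : ∀ i ≤ k + 3, Q i = P i := fun i hi => if_pos hi
  have q2 : Q (k + 4) = L := by simp [Q]
  have q3 : Q (k + 5) = χ := by simp [Q]
  have q4 : ∀ j ≤ k + 1, (Q (j + 3)).coeff (j + 2) = z + y - 3 := by
    intro j hj
    rcases hj.lt_or_eq with h | rfl
    · rw [q1 _ (by omega), p3]
    · rw [q2, l3]
  have q5 : ∀ j ≤ k + 2, (Q (j + 3)).eval 1 = 0 := by
    intro j hj
    rcases hj.lt_or_eq with h | rfl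
    · rcases (show j ≤ k + 1 by omega).lt_or_eq with h | rfl
      · rw [q1 _ (by omega), p7]
      · rw [q2, l4]
    · rw [q3, hχ]; simp
  refine genPair_of_seq (c := c) (μ := 1) one_ne_zero (by simpa using hgen) hroot (by omega)
    (Q := Q) (fun i hi => ?_) q3 (d := dSeq (k + 1) y z) (fun i hi => ?_)
    (fun i _ => dSeq_ne_zero _ hy hz _) (dSeq_prod (k + 1) y z) ![k + 4, k + 3, 2, 1, 0]
    (fun j => by fin_cases j <;> simp) ![1, δ, α₂, α₀, α₀] ?_
    (fun i => if i = 0 then 1 + z else if i = 1 then -z else if i = 2 then z else 0)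
    (fun i hi => ?_) (by simp) (Or.inr ⟨?_, ?_⟩)
  · rcases hi.lt_or_eq with h | rfl
    · rcases (show i ≤ k + 4 by omega).lt_or_eq with h | rfl
      · rw [q1 _ (by omega)]; exact p1 i
      · rw [q2]; exact ⟨l1.1, l1.2, l2⟩
    · rw [q3]
      exact ⟨c1, c2, by rw [c3]; ring⟩
  · match i with
    | 0 =>
      rw [q1 _ (by omega), q1 _ (by omega), p2, (p1 _).2.2]
      simp [dSeq]; ring
    | 1 =>
      rw [q4 0 (by omega), q1 _ (by omega), p2]
      simp [dSeq]; ring
    | j + 2 =>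
      rw [q4 j (by omega)]
      rcases (show j ≤ k + 1 by omega).lt_or_eq with h | rfl
      · rw [q4 (j + 1) (by omega), dSeq, if_neg (by omega), if_neg (by omega), if_neg (by omega)]
        ring
      · rw [q3, c4, dSeq, if_neg (by omega), if_neg (by omega), if_pos rfl]
        push_cast
        linear_combination hs
  · simp only [Fin.sum_univ_five, Matrix.cons_val, q2, q1 (k + 3) le_rfl, q1 2 (by omega),
      q1 1 (by omega), q1 0 (by omega), hL, ← ha]
    module
  · match i with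
    | 0 => rw [q1 _ (by omega), p4]; simp
    | 1 => rw [q1 _ (by omega), p5]; simp
    | 2 => rw [q1 _ (by omega), p6]; simp
    | j + 3 => rw [q5 j (by omega)]; simp
  · have e1 := q5 (k + 2) le_rfl
    have e2 := q5 (k + 1) (by omega)
    have e3 := q5 0 (by omega)
    simp only [Fin.sum_univ_five, Matrix.cons_val, q1 2 (by omega), q1 1 (by omega), zero_add,
      Nat.reduceAdd, p5, p6]
    rw [show k + 4 + 1 = k + 2 + 3 from rfl, show k + 3 + 1 = k + 1 + 3 from rfl, e1, e2, e3]
    simp [hα₀, hα₂, hδ, hy, hz]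
  · simp [Fin.sum_univ_five, hα₀]
    ring

theorem genPair_four {μ : F} (hμ : μ ^ 2 = 1) (hgen : ∀ M : Subring K, μ • c ∈ M → M = ⊤)
    (hdeg : (minpoly F c).natDegree = 2) (h0 : (minpoly F c).coeff 0 = 1)
    {y z : F} (hy : y ≠ 0) (hz : z ≠ 0)
    (hs : z * (1 + y ^ 2) + y = 4 - 2 * μ + (minpoly F c).nextCoeff) (α₁ : F)
    (hP : (μ = 1 ∧ α₁ * (z - z * y ^ 2) + (z * y ^ 2) ^ 2 * (1 - z) = 0) ∨
      (μ = -1 ∧ y = -1 ∧ z = -1 ∧ α₁ = 0 ∧ (3 : F) = 0)) : GenPair 4 F := by
  haveI : FiniteDimensional F K := Module.Finite.of_finite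
  have hint : IsIntegral F c := Algebra.IsIntegral.isIntegral c
  have hroot : (minpoly F c).eval μ ≠ 0 :=
    (minpoly.irreducible hint).not_isRoot_of_natDegree_ne_one (by omega)
  have hμ0 : μ ≠ 0 := by rintro rfl; simp at hμ
  have hμi : μ⁻¹ = μ := inv_eq_of_mul_eq_one_right (by rw [← sq, hμ])
  obtain ⟨a1, a2, a3, a4⟩ := mul_facts (minpoly.monic hint) hdeg μ 0
  obtain ⟨c1, c2, c3, c4⟩ := mul_facts (minpoly.monic hint) hdeg μ 1
  simp only [zero_add, pow_one, add_zero, h0, Nat.reduceAdd] at a1 a2 a3 a4 c1 c2 c3 c4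
  set a := (X - C μ) * minpoly F c with ha
  set χ := (X - C μ) ^ 2 * minpoly F c with hχ
  have ac : a.coeff 3 = 1 := by simpa [a2] using a1.coeff_natDegree
  set α₂ := z * y ^ 2 + μ - 1 with hα₂
  set α₀ := α₁ - α₂ + 1 - μ with hα₀
  set P : F[X] := X ^ 2 + C (z - 2) * X + 1 with hPd
  have p0 : P.coeff 0 = 1 := by simp [hPd]
  have p1 : P.coeff 1 = z - 2 := by simp only [hPd, coeff_add, coeff_C_mul]; simp [coeff_one]
  have p2 : P.coeff 2 = 1 := by
    simp only [hPd, coeff_add, coeff_C_mul]; simp [coeff_one, coeff_X]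
  have p3 : P.natDegree ≤ 2 := by rw [hPd]; compute_degree
  have p4 : P.eval μ = μ ^ 2 + (z - 2) * μ + 1 := by
    simp only [hPd, eval_add, eval_mul, eval_C]; simp
  set L := a - α₂ • P - α₁ • (X - 1) - α₀ • 1 with hL
  have l1 : L.Monic ∧ L.natDegree = 3 := by
    refine monic_of_coeff
      (by simp [hL, ac, coeff_eq_zero_of_natDegree_lt (p3.trans_lt (show 2 < 3 by omega)),
        coeff_X, coeff_one]) ?_
    rw [natDegree_le_iff_coeff_eq_zero]
    intro m hm
    simp [hL, coeff_eq_zero_of_natDegree_lt (a2.trans_lt hm), coeff_X, coeff_one,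
      coeff_eq_zero_of_natDegree_lt (p3.trans_lt (show 2 < m by omega)),
      show m ≠ 0 by omega, show 1 ≠ m by omega]
  have l2 : L.coeff 0 = -1 := by
    simp only [hL, coeff_sub, coeff_smul, a3, p0, smul_eq_mul, hα₀]
    simp
    ring
  have l3 : L.coeff 2 = z + y - 3 := by
    simp only [hL, coeff_sub, coeff_smul, a4, p2, smul_eq_mul, hα₂]
    simp [coeff_X, coeff_one]
    linear_combination -hs
  have l4 : L.eval μ = -(α₂ * P.eval μ + α₁ * (μ - 1) + α₀) := by
    simp only [hL, eval_sub, eval_smul, smul_eq_mul, ha, eval_mul, eval_X, eval_C, eval_one]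
    ring
  have c5 : χ.eval μ = 0 := by simp [hχ]
  let Q : ℕ → F[X] := fun i => match i with
    | 0 => 1
    | 1 => X - 1
    | 2 => P
    | 3 => L
    | _ + 4 => χ
  let e : ℕ → F := fun i => match i with
    | 0 => 1 - (μ - 1) + P.eval μ - L.eval μ
    | 1 => μ - 1 - P.eval μ + L.eval μ
    | 2 => P.eval μ - L.eval μ
    | 3 => L.eval μ
    | _ + 4 => 0
  refine genPair_of_seq (c := c) hμ0 (hμi.symm ▸ hgen) hroot le_rfl
    (Q := Q) (fun i hi => ?_) rfl (d := dSeq 0 y z) (fun i hi => ?_)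
    (fun i _ => dSeq_ne_zero _ hy hz _) (dSeq_prod 0 y z) ![3, 2, 1, 0]
    (fun j => by fin_cases j <;> simp) ![1, α₂, α₁, α₀] ?_ e (fun i hi => ?_) rfl ?_
  · rw [← and_assoc]
    interval_cases i
    · simp [Q]
    · exact ⟨monic_of_coeff (by simp [Q, coeff_one]) (by simp only [Q]; compute_degree),
        by simp [Q]⟩
    · exact ⟨monic_of_coeff p2 p3, by simpa using p0⟩
    · exact ⟨l1, l2.trans (by norm_num)⟩
    · exact ⟨⟨c1, c2⟩, c3.trans (by linear_combination hμ)⟩
  · have : i < 3 := by omega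
    interval_cases i
    · simp [Q, dSeq, p1]; ring
    · simp [Q, dSeq, p1, l3]; ring
    · simp [Q, dSeq, c4, l3]; linear_combination hs
  · simp only [Fin.sum_univ_four, Matrix.cons_val, Q, hL, ← ha]
    module
  · interval_cases i <;> simp [Q, e]
  · simp only [Fin.sum_univ_four, Matrix.cons_val, Q, e, c5, l4, p4, eval_sub, eval_X, eval_one]
    rcases hP with ⟨rfl, h⟩ | ⟨rfl, rfl, rfl, rfl, h⟩
    · refine Or.inl ⟨?_, fun h1 => pow_ne_zero 2 (mul_ne_zero hz hy) ?_⟩
      · simp only [hα₀, hα₂]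
        linear_combination h
      · simp only [hα₀, hα₂] at h1
        linear_combination -h1
    · refine Or.inr ⟨fun h1 => one_ne_zero (α := F) ?_, ?_⟩
      · simp only [hα₀, hα₂] at h1
        linear_combination -h1 - 13 * h
      · simp only [hα₀, hα₂]
        linear_combination 5 * h

theorem natCast_eq_zero_of_card [Fintype F] {p : ℕ} (h : Fintype.card F = p) : (p : F) = 0 :=
  h ▸ FiniteField.cast_card_eq_zero F

/-- `SL_n(q)`, `n ≥ 4`, is generated by two conjugate regular unipotent elements. -/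
theorem genPair [Fintype F] {n : ℕ} (hn : 4 ≤ n) : GenPair n F := by
  obtain ⟨p, hp⟩ := CharP.exists F
  haveI : Fact p.Prime := ⟨CharP.char_is_prime F p⟩
  haveI : NeZero (n - 2) := ⟨by omega⟩
  have hK := FiniteField.finrank_extension F p (n - 2)
  obtain ⟨c, hgen, hdeg, h0, h2⟩ := exists_gen (F := F) (K := FiniteField.Extension F p (n - 2))
    (by omega)
  rw [hK] at hdeg h0
  set t := (minpoly F c).nextCoeff with ht
  rcases hn.lt_or_eq with h | rfl
  · obtain ⟨k, rfl⟩ : ∃ k, n = k + 5 := ⟨n - 5, by omega⟩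
    by_cases hq : Fintype.card F = 2
    · refine genPair_five hgen hdeg h0 one_ne_zero one_ne_zero ?_
      rw [← ht, h2 hq]
      ring
    · obtain ⟨y, z, hy, hz, hs⟩ := exists_param hq (2 + t)
      exact genPair_five hgen hdeg h0 hy hz hs
  have hint : IsIntegral F c := Algebra.IsIntegral.isIntegral c
  have hroot : ∀ r : F, r ^ 2 + t * r + 1 ≠ 0 := by
    intro r hr
    refine (minpoly.irreducible hint).not_isRoot_of_natDegree_ne_one (x := r) (by omega) ?_
    have e : (minpoly F c).coeff 2 = 1 := by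
      simpa [hdeg] using (minpoly.monic hint).coeff_natDegree
    have e1 : (minpoly F c).coeff 1 = t := by
      rw [ht, nextCoeff_of_natDegree_pos (by omega), hdeg]
    rw [IsRoot, eval_eq_sum_range, hdeg]
    simp only [Finset.sum_range_succ, Finset.range_zero, Finset.sum_empty, Nat.reduceSub, e, e1,
      h0]
    linear_combination hr
  have h0' : (minpoly F c).coeff 0 = 1 := h0.trans (by norm_num)
  have hgen1 : ∀ M : Subring (FiniteField.Extension F p (4 - 2)), (1 : F) • c ∈ M → M = ⊤ := by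
    simpa using hgen
  by_cases hq2 : Fintype.card F = 2
  · refine genPair_four (one_pow 2) hgen1 hdeg h0' one_ne_zero one_ne_zero ?_ 0
      (Or.inl ⟨rfl, by ring⟩)
    rw [← ht, h2 hq2]
    ring
  by_cases hq3 : Fintype.card F = 3
  · have h3 : (3 : F) = 0 := by exact_mod_cast natCast_eq_zero_of_card hq3
    have h4 := FiniteField.pow_card t
    rw [hq3] at h4
    have h5 : t * (t - 1) * (t + 1) = 0 := by linear_combination h4
    have h6 : t = 0 := by
      simp only [mul_eq_zero] at h5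
      rcases h5 with (h | h) | h
      · exact h
      · exact absurd (by linear_combination h + h3) (hroot 1)
      · exact absurd (by linear_combination -h + h3) (hroot (-1))
    refine genPair_four (μ := -1) (by norm_num) (fun M hM => hgen M (by simpa using hM)) hdeg h0'
      (y := -1) (z := -1) (by simp) (by simp) ?_ 0 (Or.inr ⟨rfl, rfl, rfl, rfl, h3⟩)
    rw [← ht, h6]
    linear_combination -3 * h3
  by_cases hq5 : Fintype.card F = 5
  · have h3 : (5 : F) = 0 := by exact_mod_cast natCast_eq_zero_of_card hq5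
    have h4 := FiniteField.pow_card t
    rw [hq5] at h4
    have h5 : t * (t - 2) * (t + 2) * (t ^ 2 - 1) = 0 := by
      linear_combination h4 + (t - t ^ 3) * h3
    have h6 : t ^ 2 = 1 := by
      simp only [mul_eq_zero] at h5
      rcases h5 with ((h | h) | h) | h
      · exact absurd (by linear_combination 2 * h + h3) (hroot 2)
      · exact absurd (by linear_combination -h) (hroot (-1))
      · exact absurd (by linear_combination h) (hroot 1)
      · exact sub_eq_zero.1 h
    refine genPair_four (one_pow 2) hgen1 hdeg h0' (y := t) (z := 1)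
      (by rintro h; simp [h] at h6) one_ne_zero ?_ 0 (Or.inl ⟨rfl, by ring⟩)
    rw [← ht, h6]
    ring
  obtain ⟨y, z, hy, hz, hy1, hs⟩ := exists_param_generic hq2 hq3 hq5 (2 + t)
  have hne : z - z * y ^ 2 ≠ 0 := by
    rw [← mul_one_sub]
    exact mul_ne_zero hz (sub_ne_zero.2 hy1.symm)
  exact genPair_four (one_pow 2) hgen1 hdeg h0' hy hz (by rw [hs]; ring)
    (-((z * y ^ 2) ^ 2 * (1 - z)) / (z - z * y ^ 2))
    (Or.inl ⟨rfl, by rw [div_mul_cancel₀ _ hne]; ring⟩)

end CfsgLib.GenSL
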