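import Mathlib
import Cfsg.Agent.Lib.GenSL.Param

/-!
`SL₃(q)` is generated by two conjugate regular unipotent elements.
-/

set_option autoImplicit false

namespace CfsgLib.GenSL

open Module CfsgLib.ClMax Matrix

variable {F : Type*} [Field F]

/-- The lower unitriangular generator. -/
def vM (δ : F) : SpecialLinearGroup (Fin 3) F :=
  ⟨!![1, 0, 0; 1, 1, 0; δ, 1, 1], by simp [det_fin_three]⟩

/-- The upper unitriangular generator. -/
def wM (α β γ : F) : SpecialLinearGroup (Fin 3) F :=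
  ⟨!![1, α, β; 0, 1, γ; 0, 0, 1], by simp [det_fin_three]⟩

/-- A linear form on `F³`. -/
def dl (f₀ f₁ f₂ : F) : Dual F (Fin 3 → F) :=
  f₀ • LinearMap.proj 0 + f₁ • LinearMap.proj 1 + f₂ • LinearMap.proj 2

theorem dl_apply (f₀ f₁ f₂ : F) (x : Fin 3 → F) :
    dl f₀ f₁ f₂ x = f₀ * x 0 + f₁ * x 1 + f₂ * x 2 := by simp [dl]

theorem exists_dl (φ : Dual F (Fin 3 → F)) : ∃ f₀ f₁ f₂, φ = dl f₀ f₁ f₂ := by
  refine ⟨φ (Pi.single 0 1), φ (Pi.single 1 1), φ (Pi.single 2 1),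
    (Pi.basisFun F (Fin 3)).ext fun i => ?_⟩
  fin_cases i <;> simp [dl_apply]

theorem vM_apply (δ : F) (x : Fin 3 → F) : SpecialLinearGroup.toLin' (vM δ) x =
    ![x 0, x 0 + x 1, δ * x 0 + x 1 + x 2] := by
  rw [Matrix.SpecialLinearGroup.toLin'_apply]
  ext i
  fin_cases i <;> simp [vM, mulVec, dotProduct, Fin.sum_univ_three]

theorem wM_apply (α β γ : F) (x : Fin 3 → F) : SpecialLinearGroup.toLin' (wM α β γ) x =
    ![x 0 + α * x 1 + β * x 2, x 1 + γ * x 2, x 2] := by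
  rw [Matrix.SpecialLinearGroup.toLin'_apply]
  ext i
  fin_cases i <;> simp [wM, mulVec, dotProduct, Fin.sum_univ_three]

variable (δ α β γ : F)

/-- The group generated by the two generators. -/
def grp : Subgroup ((Fin 3 → F) ≃ₗ[F] (Fin 3 → F)) :=
  (Subgroup.closure {vM δ, wM α β γ}).map SpecialLinearGroup.toLin'

theorem vM_mem : SpecialLinearGroup.toLin' (vM δ) ∈ grp δ α β γ :=
  ⟨_, Subgroup.subset_closure (by simp), rfl⟩

theorem wM_mem : SpecialLinearGroup.toLin' (wM α β γ) ∈ grp δ α β γ :=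
  ⟨_, Subgroup.subset_closure (by simp), rfl⟩

/-- The transvection with centre `a` and form `f` lies in the group. -/
def T (a₀ a₁ a₂ f₀ f₁ f₂ : F) : Prop := HasTv (grp δ α β γ) ![a₀, a₁, a₂] (dl f₀ f₁ f₂)

variable {δ α β γ}

theorem grp_irr (hα : α ≠ 0) (hγ : γ ≠ 0) : Irr (grp δ α β γ) := by
  intro U hU
  refine or_iff_not_imp_left.2 fun h0 => ?_
  obtain ⟨u, hu, hu0⟩ := (Submodule.ne_bot_iff _).1 h0
  have hv : ∀ x ∈ U, ![0, x 0, δ * x 0 + x 1] ∈ U := fun x hx => by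
    convert U.sub_mem (hU _ (vM_mem δ α β γ) x hx) hx using 1
    rw [vM_apply]
    ext i
    fin_cases i <;> simp
  have hw : ∀ x ∈ U, ![α * x 1 + β * x 2, γ * x 2, 0] ∈ U := fun x hx => by
    convert U.sub_mem (hU _ (wM_mem δ α β γ) x hx) hx using 1
    rw [wM_apply]
    ext i
    fin_cases i <;> simp
    ring
  have key : ∀ t : F, t ≠ 0 → ![0, 0, t] ∈ U → ![0, 0, 1] ∈ U := fun t ht h => by
    simpa [ht] using U.smul_mem t⁻¹ h
  have h3 : ![0, 0, 1] ∈ U := by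
    by_cases h1 : u 0 = 0
    · by_cases h2 : u 1 = 0
      · refine key (u 2) (fun h => hu0 ?_) ?_
        · ext i
          fin_cases i <;> simp [h1, h2, h]
        · convert hu using 1
          ext i
          fin_cases i <;> simp [h1, h2]
      · exact key _ h2 (by simpa [h1] using hv u hu)
    · exact key _ h1 (by simpa using hv _ (hv u hu))
  have h2 : ![β, γ, 0] ∈ U := by simpa using hw _ h3
  have h1 : ![α * γ, 0, 0] ∈ U := by simpa using hw _ h2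
  rw [eq_top_iff]
  intro x _
  convert U.add_mem (U.add_mem (U.smul_mem (x 2) h3) (U.smul_mem (x 1 / γ) h2))
    (U.smul_mem ((x 0 - x 1 / γ * β) / (α * γ)) h1) using 1
  ext i
  fin_cases i <;> simp
  · field_simp
    ring
  · field_simp

theorem genPair_three_of {y : F} (hy : y ^ 3 * (α * γ ^ 2) = -1) {a : Fin 3 → F} (ha : a ≠ 0)
    (h : FullTv (grp δ α β γ) a) : GenPair 3 F := by
  have hα : α ≠ 0 := by rintro rfl; simp at hy
  have hγ : γ ≠ 0 := by rintro rfl; simp at hy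
  have hle := SLV_le_of_irred ha h (grp_irr hα hγ)
  let g : SpecialLinearGroup (Fin 3) F :=
    ⟨!![0, y * (β - δ * α * γ), y * α * γ; 0, y * γ, 0; y, 0, 0], by
      simp [det_fin_three]
      linear_combination -hy⟩
  have hg : g * vM δ * g⁻¹ = wM α β γ := by
    rw [mul_inv_eq_iff_eq_mul]
    ext i j
    simp only [Matrix.SpecialLinearGroup.coe_mul]
    fin_cases i <;> fin_cases j <;> simp [g, vM, wM, mul_apply, Fin.sum_univ_three] <;> ring
  refine ⟨vM δ, g, ⟨⟨3, ?_⟩, fun h0 => ?_⟩, ?_⟩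
  · ext i j
    fin_cases i <;> fin_cases j <;>
      simp [vM, pow_succ, mul_apply, Fin.sum_univ_three, one_apply]
  · have := congrFun (congrFun h0 2) 0
    simp [vM, pow_succ, mul_apply, Fin.sum_univ_three, one_apply] at this
  · rw [hg, eq_top_iff]
    intro A _
    obtain ⟨B, hB, e⟩ := hle (x := SpecialLinearGroup.toLin' A)
      (by rw [mem_SLV, SpecialLinearGroup.toLin'_to_linearMap]; simp)
    rwa [← SpecialLinearGroup.toLin'_injective e]

namespace T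

variable {a₀ a₁ a₂ b₀ b₁ b₂ f₀ f₁ f₂ g₀ g₁ g₂ : F}

theorem congr (h : T δ α β γ a₀ a₁ a₂ f₀ f₁ f₂) (e : a₀ = b₀ ∧ a₁ = b₁ ∧ a₂ = b₂)
    (e' : f₀ = g₀ ∧ f₁ = g₁ ∧ f₂ = g₂) : T δ α β γ b₀ b₁ b₂ g₀ g₁ g₂ := by
  obtain ⟨rfl, rfl, rfl⟩ := e
  obtain ⟨rfl, rfl, rfl⟩ := e'
  exact h

theorem add (h : T δ α β γ a₀ a₁ a₂ f₀ f₁ f₂) (h' : T δ α β γ a₀ a₁ a₂ g₀ g₁ g₂)
    (e : f₀ * a₀ + f₁ * a₁ + f₂ * a₂ = 0) :
    T δ α β γ a₀ a₁ a₂ (f₀ + g₀) (f₁ + g₁) (f₂ + g₂) :=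
  (HasTv.add_right h h' (by simpa [dl_apply] using e)).congr fun x => by
    simp only [dl_apply, LinearMap.add_apply]; congr 1; ring

theorem add_left (h : T δ α β γ a₀ a₁ a₂ f₀ f₁ f₂) (h' : T δ α β γ b₀ b₁ b₂ f₀ f₁ f₂)
    (e : f₀ * b₀ + f₁ * b₁ + f₂ * b₂ = 0) :
    T δ α β γ (a₀ + b₀) (a₁ + b₁) (a₂ + b₂) f₀ f₁ f₂ :=
  (HasTv.add_left h h' (by simpa [dl_apply] using e)).congr fun x => by simp

theorem neg (h : T δ α β γ a₀ a₁ a₂ f₀ f₁ f₂) (e : f₀ * a₀ + f₁ * a₁ + f₂ * a₂ = 0) :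
    T δ α β γ a₀ a₁ a₂ (-f₀) (-f₁) (-f₂) :=
  (HasTv.neg_right h (by simpa [dl_apply] using e)).congr fun x => by
    simp only [dl_apply, LinearMap.neg_apply]; congr 1; ring

theorem neg_neg (h : T δ α β γ a₀ a₁ a₂ f₀ f₁ f₂) :
    T δ α β γ (-a₀) (-a₁) (-a₂) (-f₀) (-f₁) (-f₂) :=
  HasTv.congr h fun x => by
    ext i
    fin_cases i <;> simp [dl_apply] <;> ring

theorem zero : T δ α β γ a₀ a₁ a₂ 0 0 0 :=
  (hasTv_zero_right ![a₀, a₁, a₂]).congr fun x => by simp [dl_apply]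

theorem comm (h : T δ α β γ a₀ a₁ a₂ f₀ f₁ f₂) (h' : T δ α β γ b₀ b₁ b₂ g₀ g₁ g₂)
    (e₁ : f₀ * a₀ + f₁ * a₁ + f₂ * a₂ = 0) (e₂ : g₀ * b₀ + g₁ * b₁ + g₂ * b₂ = 0)
    (e₃ : g₀ * a₀ + g₁ * a₁ + g₂ * a₂ = 0) {m : F} (hm : f₀ * b₀ + f₁ * b₁ + f₂ * b₂ = m) :
    T δ α β γ a₀ a₁ a₂ (m * g₀) (m * g₁) (m * g₂) :=
  (HasTv.comm h h' (by simpa [dl_apply] using e₁) (by simpa [dl_apply] using e₂)
    (by simpa [dl_apply] using e₃)).congr fun x => by
      simp only [dl_apply, LinearMap.smul_apply, ← hm]; congr 1; simp; ring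

theorem v_iff : T δ α β γ a₀ (a₀ + a₁) (δ * a₀ + a₁ + a₂) f₀ f₁ f₂ ↔
    T δ α β γ a₀ a₁ a₂ (f₀ + f₁ + δ * f₂) (f₁ + f₂) f₂ := by
  have e := vM_apply δ ![a₀, a₁, a₂]
  simp only [cons_val] at e
  have e' : ∀ x, dl f₀ f₁ f₂ (SpecialLinearGroup.toLin' (vM δ) x) =
      dl (f₀ + f₁ + δ * f₂) (f₁ + f₂) f₂ x := fun x => by
    simp only [vM_apply, dl_apply, cons_val]; ring
  unfold T
  rw [← e]
  refine ⟨fun h => ?_, fun h => h.conj' (vM_mem δ α β γ) e'⟩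
  have := h.conj' ((grp δ α β γ).inv_mem (vM_mem δ α β γ))
    fun x => (e' _).symm.trans (congrArg _ (apply_inv_apply _ x))
  rwa [inv_apply_apply] at this

theorem w_iff : T δ α β γ (a₀ + α * a₁ + β * a₂) (a₁ + γ * a₂) a₂ f₀ f₁ f₂ ↔
    T δ α β γ a₀ a₁ a₂ f₀ (α * f₀ + f₁) (β * f₀ + γ * f₁ + f₂) := by
  have e := wM_apply α β γ ![a₀, a₁, a₂]
  simp only [cons_val] at e
  have e' : ∀ x, dl f₀ f₁ f₂ (SpecialLinearGroup.toLin' (wM α β γ) x) =
      dl f₀ (α * f₀ + f₁) (β * f₀ + γ * f₁ + f₂) x := fun x => by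
    simp only [wM_apply, dl_apply, cons_val]; ring
  unfold T
  rw [← e]
  refine ⟨fun h => ?_, fun h => h.conj' (wM_mem δ α β γ) e'⟩
  have := h.conj' ((grp δ α β γ).inv_mem (wM_mem δ α β γ))
    fun x => (e' _).symm.trans (congrArg _ (apply_inv_apply _ x))
  rwa [inv_apply_apply] at this

theorem of_vwvw (h : ∀ x : Fin 3 → F, SpecialLinearGroup.toLin' (vM δ)
      (SpecialLinearGroup.toLin' (wM α β γ) (SpecialLinearGroup.toLin' (vM δ)
        (SpecialLinearGroup.toLin' (wM α β γ) x))) = x + dl f₀ f₁ f₂ x • ![a₀, a₁, a₂]) :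
    T δ α β γ a₀ a₁ a₂ f₀ f₁ f₂ :=
  ⟨_, (grp δ α β γ).mul_mem (vM_mem δ α β γ) ((grp δ α β γ).mul_mem (wM_mem δ α β γ)
    ((grp δ α β γ).mul_mem (vM_mem δ α β γ) (wM_mem δ α β γ))), h⟩

/-- The multipliers of the set of `c` with `T a (c f)`. -/
def mult (δ α β γ a₀ a₁ a₂ f₀ f₁ f₂ : F) (e : f₀ * a₀ + f₁ * a₁ + f₂ * a₂ = 0) : Subring F where
  carrier := {k | ∀ c, T δ α β γ a₀ a₁ a₂ (c * f₀) (c * f₁) (c * f₂) →
    T δ α β γ a₀ a₁ a₂ (k * c * f₀) (k * c * f₁) (k * c * f₂)}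
  mul_mem' := fun {k k'} hk hk' c hc => by simpa only [mul_assoc] using hk _ (hk' c hc)
  one_mem' := fun c hc => by simpa only [one_mul] using hc
  add_mem' := fun {k k'} hk hk' c hc => by
    simpa only [add_mul] using (hk c hc).add (hk' c hc) (by linear_combination (k * c) * e)
  zero_mem' := fun c _ => by simpa only [zero_mul] using zero
  neg_mem' := fun {k} hk c hc => by
    simpa only [neg_mul] using (hk c hc).neg (by linear_combination (k * c) * e)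

theorem all_of_mult (e : f₀ * a₀ + f₁ * a₁ + f₂ * a₂ = 0)
    (h : mult δ α β γ a₀ a₁ a₂ f₀ f₁ f₂ e = ⊤) {m : F} (hm : m ≠ 0)
    (h1 : T δ α β γ a₀ a₁ a₂ (m * f₀) (m * f₁) (m * f₂)) (c : F) :
    T δ α β γ a₀ a₁ a₂ (c * f₀) (c * f₁) (c * f₂) := by
  have : c / m ∈ mult δ α β γ a₀ a₁ a₂ f₀ f₁ f₂ e := h ▸ Subring.mem_top _
  simpa only [div_mul_cancel₀ c hm] using this m h1

end T

theorem genPair_three_char_two (h2 : (2 : F) = 0) {β : F} (hβ : ∀ M : Subring F, β ∈ M → M = ⊤) :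
    GenPair 3 F := by
  have h13 : T (0 : F) 1 β 1 1 0 0 0 0 1 :=
    ⟨_, (grp 0 1 β 1).mul_mem (wM_mem 0 1 β 1) (wM_mem 0 1 β 1), fun x => by
      ext i
      fin_cases i <;> simp [wM_apply, dl_apply]
      · linear_combination (x 1 + β * x 2) * h2
      · linear_combination (x 2) * h2⟩
  have hv : ∀ c, T (0 : F) 1 β 1 1 0 0 0 0 c → T (0 : F) 1 β 1 1 1 1 0 c c := fun c h =>
    (T.v_iff.1 (h.congr ⟨rfl, by linear_combination -h2, by linear_combination -h2⟩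
      ⟨rfl, rfl, rfl⟩)).congr ⟨rfl, rfl, rfl⟩ ⟨by ring, by ring, rfl⟩
  have hr : ∀ {c f₁ f₂ m}, T (0 : F) 1 β 1 1 0 0 0 0 c → T (0 : F) 1 β 1 1 0 0 0 f₁ f₂ →
      f₁ + f₂ = m → T (0 : F) 1 β 1 1 0 0 0 (m * c) (m * c) := fun {c f₁ f₂ m} h h' e =>
    (h'.comm (hv c h) (by ring) (by linear_combination c * h2) (by ring)
      (m := m) (by linear_combination e)).congr ⟨rfl, rfl, rfl⟩ ⟨by ring, rfl, rfl⟩
  have h12 : T (0 : F) 1 β 1 1 0 0 0 1 0 :=
    ((hr h13 h13 (zero_add 1)).add h13 (by ring)).congr ⟨rfl, rfl, rfl⟩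
      ⟨by ring, by ring, by linear_combination h2⟩
  have h3 : T (0 : F) 1 β 1 1 1 0 1 1 1 :=
    (T.v_iff.2 (h13.congr ⟨rfl, rfl, rfl⟩
      ⟨by linear_combination -h2, by linear_combination -h2, rfl⟩)).congr
      ⟨rfl, by ring, by ring⟩ ⟨rfl, rfl, rfl⟩
  have h23 : T (0 : F) 1 β 1 0 1 0 0 0 1 :=
    (((h3.comm h13 (by linear_combination h2) (by ring) (by ring) (m := 1) (by ring)).congr
      ⟨rfl, rfl, rfl⟩ ⟨by ring, by ring, by ring⟩).add_left h13 (by ring)).congr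
      ⟨by linear_combination h2, by ring, by ring⟩ ⟨rfl, rfl, rfl⟩
  have h13' : T (0 : F) 1 β 1 1 0 0 0 0 β := by
    obtain ⟨g₁, m₁, e₁⟩ := h12
    obtain ⟨g₂, m₂, e₂⟩ := h23
    refine ⟨_, (grp 0 1 β 1).mul_mem m₁ ((grp 0 1 β 1).mul_mem m₂ (wM_mem 0 1 β 1)), fun x => ?_⟩
    rw [LinearEquiv.mul_apply, LinearEquiv.mul_apply, e₁, e₂]
    ext i
    fin_cases i <;> simp [wM_apply, dl_apply]
    · linear_combination (x 1 + x 2) * h2
    · linear_combination (x 2) * h2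
  have hall := T.all_of_mult (a₀ := 1) (a₁ := 0) (a₂ := 0) (f₀ := 0) (f₁ := 0) (f₂ := 1) (by ring)
    (hβ _ fun c hc => ((hr h13' (hc.congr ⟨rfl, rfl, rfl⟩ ⟨mul_zero c, rfl, rfl⟩) (m := c)
      (by ring)).comm h23 (by ring) (by ring) (by ring) (m := β * c) (by ring)))
    one_ne_zero (h13.congr ⟨rfl, rfl, rfl⟩ ⟨by ring, by ring, by ring⟩)
  refine genPair_three_of (δ := 0) (α := 1) (β := β) (γ := 1) (y := 1) (by linear_combination h2)
    (a := ![1, 0, 0]) (by simp) fun φ hφ => ?_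
  obtain ⟨f₀, f₁, f₂, rfl⟩ := exists_dl φ
  have e : f₀ = 0 := by simpa [dl_apply] using hφ
  exact ((hr h13 ((hall f₁).congr ⟨rfl, rfl, rfl⟩ ⟨mul_zero _, rfl, rfl⟩) (m := f₁)
    (by ring)).add (hall (f₂ - f₁)) (by ring)).congr ⟨rfl, rfl, rfl⟩
    ⟨by rw [e]; ring, by ring, by ring⟩

theorem genPair_three_card_three [Fintype F] (hq : Fintype.card F = 3) : GenPair 3 F := by
  have h3 : (3 : F) = 0 := by exact_mod_cast natCast_eq_zero_of_card hq
  have hc : ∀ {f₀ f₁ f₂ : F}, T (-1 : F) (-1) 1 1 1 (-1) 0 f₀ f₁ f₂ → f₀ = f₁ → ∀ c,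
      T (-1 : F) (-1) 1 1 1 (-1) 0 (c * f₀) (c * f₁) (c * f₂) := by
    intro f₀ f₁ f₂ h e c
    have h4 := FiniteField.pow_card c
    rw [hq] at h4
    have h5 : c * (c - 1) * (c + 1) = 0 := by linear_combination h4
    simp only [mul_eq_zero, sub_eq_zero, add_eq_zero_iff_eq_neg] at h5
    rcases h5 with (rfl | rfl) | rfl
    · simpa using T.zero
    · simpa using h
    · simpa using h.neg (by linear_combination e)
  have h1 : T (-1 : F) (-1) 1 1 1 (-1) 0 1 1 0 := T.of_vwvw fun x => by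
    ext i
    fin_cases i <;> simp [vM_apply, wM_apply, dl_apply]
    · linear_combination (-x 0) * h3
    · linear_combination (x 1 + x 2) * h3
    · linear_combination (x 1 + x 2) * h3
  have h2 : T (-1 : F) (-1) 1 1 0 (-1) 1 (-1) (-1) (-1) := by
    have h4 : T (-1 : F) (-1) 1 1 0 (-1) 0 1 0 (-1) :=
      (T.w_iff.1 (h1.congr ⟨by ring, by ring, rfl⟩ ⟨rfl, rfl, rfl⟩)).congr ⟨rfl, rfl, rfl⟩
        ⟨rfl, by ring, by linear_combination h3⟩
    exact (T.v_iff.1 (h4.congr ⟨rfl, by ring, by ring⟩ ⟨rfl, rfl, rfl⟩)).congr ⟨rfl, rfl, rfl⟩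
      ⟨by linear_combination h3, by ring, rfl⟩
  have h4 := h1.comm h2 (by ring) (by ring) (by ring) (m := -1) (by ring)
  refine genPair_three_of (δ := -1) (α := -1) (β := 1) (γ := 1) (y := 1) (by ring)
    (a := ![1, -1, 0]) (by simp) fun φ hφ => ?_
  obtain ⟨f₀, f₁, f₂, rfl⟩ := exists_dl φ
  have e : f₀ = f₁ := by simpa [dl_apply, ← sub_eq_add_neg, sub_eq_zero] using hφ
  exact ((hc h1 rfl (f₀ - f₂)).add (hc h4 rfl f₂) (by ring)).congr ⟨rfl, rfl, rfl⟩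
    ⟨by ring, by rw [e]; ring, by ring⟩

theorem inv_mem_subring [Fintype F] (M : Subring F) {x : F} (hx : x ∈ M) : x⁻¹ ∈ M := by
  by_cases h : x = 0
  · simp [h]
  have h1 := FiniteField.pow_card_sub_one_eq_one x h
  have h2 : 2 ≤ Fintype.card F := Fintype.one_lt_card
  rw [show Fintype.card F - 1 = Fintype.card F - 2 + 1 by omega, pow_succ'] at h1
  rw [inv_eq_of_mul_eq_one_right h1]
  exact M.pow_mem hx _

theorem mem_of_delta [Fintype F] (h2 : (2 : F) ≠ 0) (M : Subring F) {D r : F} (hD : D ≠ 0)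
    (e : 4 * D = r ^ 2 + 3) (h1 : -32 * (D * r) ∈ M) (h3 : -4096 * D ^ 3 ∈ M) : r ∈ M := by
  have h2M : (2 : F) ∈ M := by exact_mod_cast natCast_mem M 2
  have hi := inv_mem_subring M h2M
  have h1' : D * r ∈ M := by
    convert M.neg_mem (M.mul_mem (M.pow_mem hi 5) h1) using 1
    field_simp
    ring
  have h3' : D ^ 3 ∈ M := by
    convert M.neg_mem (M.mul_mem (M.pow_mem hi 12) h3) using 1
    field_simp
    ring
  by_cases h : (3 : F) = 0
  · haveI : Fact (Nat.Prime 3) := ⟨Nat.prime_three⟩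
    have h4 : ringChar F = 3 := by
      have := (ringChar.spec F 3).1 (by exact_mod_cast h)
      exact ((Nat.dvd_prime Nat.prime_three).1 this).resolve_left CharP.ringChar_ne_one
    obtain ⟨m, hm⟩ := (prime_dvd_char_iff_dvd_card (R := F) 3).1 (by rw [h4])
    have h5 : r ^ 3 ∈ M := by
      convert M.mul_mem (M.pow_mem h2M 2) h1' using 1
      linear_combination (-r) * e - r * h
    rw [← FiniteField.pow_card r, hm, pow_mul]
    exact M.pow_mem h5 m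
  · have h3M : (3 : F) ∈ M := by exact_mod_cast natCast_mem M 3
    have h5 : D ^ 2 ∈ M := by
      convert M.mul_mem (inv_mem_subring M h3M)
        (M.sub_mem (M.mul_mem (M.pow_mem h2M 2) h3') (M.pow_mem h1' 2)) using 1
      field_simp
      linear_combination -e
    have h6 : D ∈ M := by
      convert M.mul_mem h3' (inv_mem_subring M h5) using 1
      field_simp
    convert M.mul_mem h1' (inv_mem_subring M h6) using 1
    field_simp

theorem genPair_three_odd [Fintype F] (h2 : (2 : F) ≠ 0) {s t : F} (hs : s ≠ 0) (ht : t ≠ 0)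
    (hst : t = 1 - s) (hD : s ^ 2 - s + 1 ≠ 0)
    (hgen : ∀ M : Subring F, 2 * s - 1 ∈ M → M = ⊤) : GenPair 3 F := by
  have h4 : (4 : F) ≠ 0 := by
    have := mul_ne_zero h2 h2
    rwa [show (2 : F) * 2 = 4 by norm_num] at this
  obtain ⟨D, hDe⟩ : ∃ D, D = s ^ 2 - s + 1 := ⟨_, rfl⟩
  rw [← hDe] at hD
  obtain ⟨δ, hδ⟩ : ∃ δ, δ = 1 - 1 / (2 * s * t) := ⟨_, rfl⟩
  obtain ⟨α, hα⟩ : ∃ α, α = 4 * t ^ 2 / s := ⟨_, rfl⟩
  obtain ⟨γ, hγ⟩ : ∃ γ, γ = 4 * s ^ 2 / t := ⟨_, rfl⟩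
  obtain ⟨κ, hκ⟩ : ∃ κ, κ = -D / (s ^ 2 * t ^ 2) := ⟨_, rfl⟩
  have hκ0 : κ ≠ 0 := by rw [hκ]; simp [hD, hs, ht]
  have h1 : T δ α 8 γ (4 * s * t) (2 * s) (-t) (κ * s) (κ * (2 * t * (1 - 2 * s)))
      (κ * (4 * s * t)) := T.of_vwvw fun x => by
    ext i
    fin_cases i <;> simp [vM_apply, wM_apply, dl_apply, hδ, hα, hγ, hκ, hDe] <;> field_simp <;>
      simp only [hst] <;> ring
  have hv : ∀ {f₀ f₁ f₂}, T δ α 8 γ (4 * s * t) (2 * s) (-t) f₀ f₁ f₂ →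
      T δ α 8 γ (4 * s * t) (2 * s * (1 - 2 * t)) t (f₀ + f₁ + δ * f₂) (f₁ + f₂) f₂ :=
    fun h => T.v_iff.1 (h.congr ⟨rfl, by ring, by rw [hδ]; field_simp; simp only [hst]; ring⟩
      ⟨rfl, rfl, rfl⟩)
  have hb : T δ α 8 γ (4 * s * t) (2 * s * (1 - 2 * t)) t (κ * -s) (κ * (2 * t))
      (κ * (4 * s * t)) :=
    (hv h1).congr ⟨rfl, rfl, rfl⟩ ⟨by rw [hδ]; field_simp; simp only [hst]; ring, by ring, rfl⟩
  have hR : ∀ {f₀ f₁ f₂ m}, T δ α 8 γ (4 * s * t) (2 * s) (-t) f₀ f₁ f₂ →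
      f₀ * (4 * s * t) + f₁ * (2 * s) + f₂ * (-t) = 0 →
      f₀ * (4 * s * t) + f₁ * (2 * s * (1 - 2 * t)) + f₂ * t = m →
      T δ α 8 γ (4 * s * t) (2 * s) (-t) (m * (κ * -s)) (m * (κ * (2 * t)))
        (m * (κ * (4 * s * t))) := fun h e e' =>
    h.comm hb e (by rw [hst]; ring) (by rw [hst]; ring) e'
  have h3 := hR h1 (by rw [hst]; ring) (m := -16 * D)
    (by rw [hκ]; field_simp; simp only [hst]; ring)
  have hY : ∀ c, T δ α 8 γ (4 * s * t) (2 * s) (-t) (c * (κ * -s)) (c * (κ * (2 * t)))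
      (c * (κ * (4 * s * t))) → T δ α 8 γ (4 * s * t) (2 * s) (-t) (256 * D ^ 2 * (c * (κ * s)))
        (256 * D ^ 2 * (c * (κ * (2 * t * (1 - 2 * s))))) (256 * D ^ 2 * (c * (κ * (4 * s * t)))) :=
    fun c h => h3.comm (T.v_iff.2 (h.congr ⟨rfl, rfl, rfl⟩
      ⟨by rw [hδ]; field_simp; simp only [hst]; ring, by ring, rfl⟩))
      (by rw [hst]; ring) (by rw [hδ]; field_simp; simp only [hst]; ring) (by rw [hst]; ring)
      (by rw [hδ, hκ]; field_simp; simp only [hst]; ring)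
  have hall := T.all_of_mult (δ := δ) (α := α) (β := 8) (γ := γ) (a₀ := 4 * s * t) (a₁ := 2 * s)
    (a₂ := -t) (f₀ := κ * -s) (f₁ := κ * (2 * t)) (f₂ := κ * (4 * s * t)) (by rw [hst]; ring)
    (hgen _ (mem_of_delta h2 _ hD (by rw [hDe]; ring) (fun c hc => ?_) (fun c hc => ?_)))
    (mul_ne_zero (neg_ne_zero.2 (by
      have := mul_ne_zero h4 h4
      rwa [show (4 : F) * 4 = 16 by norm_num] at this)) hD) h3
  · refine genPair_three_of (δ := δ) (α := α) (β := 8) (γ := γ) (y := -1 / (4 * s))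
      (by rw [hα, hγ]; field_simp) (a := ![4 * s * t, 2 * s, -t]) (by simp [ht]) fun φ hφ => ?_
    obtain ⟨f₀, f₁, f₂, rfl⟩ := exists_dl φ
    have e : f₁ = (f₂ * t - f₀ * (4 * s * t)) / (2 * s) := by
      simp only [dl_apply, cons_val] at hφ
      field_simp
      linear_combination hφ
    refine ((hY ((f₂ / (4 * s * t) + f₀ / s) / (2 * κ) / (256 * D ^ 2)) (hall _)).add
      (hall ((f₂ / (4 * s * t) - f₀ / s) / (2 * κ))) (by rw [hst]; ring)).congr ⟨rfl, rfl, rfl⟩ ?_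
    have h256 : (256 : F) ≠ 0 := by
      have := pow_ne_zero 4 h4
      rwa [show (4 : F) ^ 4 = 256 by norm_num] at this
    rw [e]
    refine ⟨?_, ?_, ?_⟩ <;> field_simp <;> simp only [hst] <;> ring
  · have h5 := (T.w_iff.1 ((hv hc).congr (b₀ := -(4 * s * t) + α * -(2 * s) + 8 * t)
      (b₁ := -(2 * s) + γ * t) (b₂ := t) ⟨by rw [hα]; field_simp; simp only [hst]; ring,
        by rw [hγ]; field_simp; simp only [hst]; ring, rfl⟩ ⟨rfl, rfl, rfl⟩)).neg_neg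
    simp only [neg_neg] at h5
    exact hR h5 (by rw [hδ, hα, hγ]; field_simp; simp only [hst]; ring)
      (by rw [hδ, hα, hγ, hκ]; field_simp; simp only [hst]; ring)
  · exact hR (hY c hc) (by rw [hst]; ring) (by rw [hκ]; field_simp; simp only [hst]; ring)

/-- `SL₃(q)` is generated by two conjugate regular unipotent elements. -/
theorem genPair_three [Fintype F] : GenPair 3 F := by
  classical
  obtain ⟨ω, hω⟩ := IsCyclic.exists_generator (α := Fˣ)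
  have hgen : ∀ M : Subring F, (ω : F) ∈ M → M = ⊤ := by
    intro M hM
    rw [eq_top_iff]
    intro x _
    by_cases hx : x = 0
    · simp [hx]
    obtain ⟨k, hk⟩ := (mem_powers_iff_mem_zpowers.2 (hω (Units.mk0 x hx)))
    have : x = (ω : F) ^ k := by simpa using (congrArg Units.val hk).symm
    exact this ▸ M.pow_mem hM k
  by_cases h2 : (2 : F) = 0
  · exact genPair_three_char_two h2 hgen
  by_cases hq : Fintype.card F = 3
  · exact genPair_three_card_three hq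
  have hsq : (ω : F) ^ 2 ≠ 1 := by
    intro h
    rw [← Units.val_pow_eq_pow_val, Units.val_eq_one, ← orderOf_dvd_iff_pow_eq_one,
      orderOf_eq_card_of_forall_mem_zpowers hω, Nat.card_eq_fintype_card, Fintype.card_units] at h
    have h1 := Nat.le_of_dvd two_pos h
    have h3 : 2 ≤ Fintype.card F := Fintype.one_lt_card
    have h4 : Fintype.card F = 2 := by omega
    exact h2 (by exact_mod_cast natCast_eq_zero_of_card h4)
  obtain ⟨r, hr1, hr2, hr⟩ : ∃ r : F, r ^ 2 ≠ 1 ∧ r ^ 2 + 3 ≠ 0 ∧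
      ∀ M : Subring F, r ∈ M → M = ⊤ := by
    by_cases h : (ω : F) ^ 2 + 3 = 0
    · refine ⟨(ω : F)⁻¹, by rwa [inv_pow, ne_eq, inv_eq_one], fun e => ?_,
        fun M hM => hgen M (by simpa using inv_mem_subring M hM)⟩
      have h0 := ω.ne_zero
      field_simp at e
      exact pow_ne_zero 3 h2 (by linear_combination 3 * h - e)
    · exact ⟨ω, hsq, h, hgen⟩
  refine genPair_three_odd h2 (s := (1 + r) / 2) (t := (1 - r) / 2) ?_ ?_ ?_ ?_ ?_
  · exact div_ne_zero (fun e => hr1 (by linear_combination (r - 1) * e)) h2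
  · exact div_ne_zero (fun e => hr1 (by linear_combination (-r - 1) * e)) h2
  · field_simp; ring
  · intro e
    field_simp at e
    exact hr2 (by linear_combination e)
  · rwa [show 2 * ((1 + r) / 2) - 1 = r by field_simp; ring]

end CfsgLib.GenSL
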